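import Cfsg.Agent.OM.Lo.Defs
import Cfsg.Agent.H658.CyclicUse
import Cfsg.Agent.H658.RegPow
import Cfsg.Agent.H639.Sec
import Cfsg.Agent.H904.SylOne
import Cfsg.Agent.H592.Defect
import Cfsg.Agent.OddOrderCharacters.VChar
import Cfsg.Agent.S0917
import Cfsg.Agent.S4641
import Cfsg.Agent.S4733

/-!
# OM (S4894): descent to the centraliser of an element of order `p` (helper57)

* `Desc.van` : the non-exceptional characters of a block of defect one agree up to sign on the `p`-singular elements;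
* `Desc.key` : the norm of the induced function is an integer;  `boxDesc`.
-/

set_option autoImplicit false
set_option linter.unusedSectionVars false

namespace Cfsg.Agent.OM.Lo

open Cfsg Subgroup Cfsg.Agent.Characters Cfsg.Agent.Characters.Core Cfsg.Agent.Blocks Cfsg.Agent.Blocks.Basic
  Cfsg.Agent.Blocks.Blau Cfsg.Agent.H613.RegGram Cfsg.Agent.H644.CentralQuot Cfsg.Agent.OddOrderCharacters.VChar
  Cfsg.Agent.H658 Cfsg.Agent.H658.RegPow Cfsg.Agent.H649
open scoped ComplexConjugate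

namespace Desc

variable {p : ℕ} [hp : Fact p.Prime] {M : Ideal AlgInt}

section one

variable {K : Type} [Group K] [Fintype K]

/-- the values on the `p`-singular elements -/
theorem van (hM : IsPModular p M) {c X Y : Set (IrrCharacter K)} (hc : IsPBlock M c) (hXY : c = X ∪ Y) (hd : Disjoint X Y)
    (hr : blockRank p c = Nat.card X) {δ : IrrCharacter K → ℤ} {δ₀ : ℤ} (hδ : ∀ χ ∈ X, δ χ = 1 ∨ δ χ = -1) (h0 : δ₀ = 1 ∨ δ₀ = -1)
    (hrel : ∀ ψ ∈ Y, ∀ g : K, ¬ p ∣ orderOf g → (δ₀ : ℂ) * (ψ : K → ℂ) g + ∑ᶠ χ ∈ X, (δ χ : ℂ) * (χ : K → ℂ) g = 0)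
    {y : K} (hy : p ∣ orderOf y) {χ : IrrCharacter K} (hχ : χ ∈ X) :
    (δ χ : ℂ) * (χ : K → ℂ) y = δ₀ * ∑ᶠ ψ ∈ Y, (ψ : K → ℂ) y := by
  have := finite_irr (G := K)
  have := Fintype.ofFinite X
  have := Fintype.ofFinite Y
  have h1 : ∀ ψ ∈ Y, ∀ g, ¬ p ∣ orderOf g → (ψ : K → ℂ) g = ∑ χ : X, -(δ₀ * δ χ : ℂ) * (χ.1 : K → ℂ) g := fun ψ hψ g hg => by
    have h2 := hrel ψ hψ g hg
    rw [← finsum_set_coe_eq_finsum_mem, finsum_eq_sum_of_fintype] at h2
    simp only [neg_mul, mul_assoc, Finset.sum_neg_distrib, ← Finset.mul_sum]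
    rcases h0 with rfl | rfl <;> push_cast at h2 ⊢
    · linear_combination h2
    · linear_combination -h2
  have h2 : LinearIndependent ℂ fun χ : X => regPart p (χ.1 : K → ℂ) := by
    rw [linearIndependent_iff_card_eq_finrank_span, Set.finrank, ← Nat.card_eq_fintype_card, ← hr, blockRank]
    refine congrArg (fun V : Submodule ℂ (K → ℂ) => Module.finrank ℂ V) (le_antisymm (Submodule.span_le.2 ?_) (Submodule.span_le.2 ?_))
    · rintro _ ⟨ψ, hψ, rfl⟩
      beta_reduce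
      rw [pRegularPart_eq_regPart]
      rcases hXY ▸ hψ with h3 | h3
      · exact Submodule.subset_span ⟨⟨ψ, h3⟩, rfl⟩
      · rw [show regPart p (ψ : K → ℂ) = ∑ χ : X, -(δ₀ * δ χ : ℂ) • regPart p (χ.1 : K → ℂ) from funext fun g => by
          rw [Finset.sum_apply]
          by_cases hg : p ∣ orderOf g
          · simp only [Pi.smul_apply, regPart_of_dvd hg, smul_zero, Finset.sum_const_zero]
          · simp only [Pi.smul_apply, regPart_of_not_dvd hg, smul_eq_mul, h1 ψ h3 g hg]]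
        exact Submodule.sum_mem _ fun χ _ => Submodule.smul_mem _ _ (Submodule.subset_span ⟨χ, rfl⟩)
    · rintro _ ⟨ψ, rfl⟩
      exact Submodule.subset_span ⟨ψ.1, hXY ▸ Or.inl ψ.2, pRegularPart_eq_regPart p _⟩
  have h3 := Fintype.linearIndependent_iff.1 h2
    (fun χ => conj ((χ.1 : K → ℂ) y) - δ₀ * δ χ * ∑ ψ : Y, conj ((ψ.1 : K → ℂ) y)) (funext fun g => by
      rw [Finset.sum_apply]
      by_cases hg : p ∣ orderOf g
      · simp only [Pi.smul_apply, regPart_of_dvd hg, smul_zero, Finset.sum_const_zero, Pi.zero_apply]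
      have h3 := S0907.result p M hM c hc g y hg hy
      rw [hXY, finsum_mem_union hd (Set.toFinite _) (Set.toFinite _), ← finsum_set_coe_eq_finsum_mem,
        ← finsum_set_coe_eq_finsum_mem, finsum_eq_sum_of_fintype, finsum_eq_sum_of_fintype,
        Finset.sum_congr rfl fun (ψ : Y) _ => by rw [h1 ψ.1 ψ.2 g hg], ← Finset.mul_sum, Finset.sum_mul,
        ← Finset.sum_add_distrib] at h3
      rw [Pi.zero_apply, ← h3]
      exact Finset.sum_congr rfl fun χ _ => by rw [Pi.smul_apply, regPart_of_not_dvd hg, smul_eq_mul]; ring) ⟨χ, hχ⟩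
  have h4 := congrArg conj h3
  simp only [map_sub, map_mul, map_intCast, map_sum, Complex.conj_conj, map_zero] at h4
  rw [← finsum_set_coe_eq_finsum_mem, finsum_eq_sum_of_fintype]
  rcases hδ χ hχ with h5 | h5 <;> rw [h5] at h4 ⊢ <;> push_cast at h4 ⊢
  · linear_combination h4
  · linear_combination -h4

/-- the pattern of a block of defect one -/
theorem pat (hM : IsPModular p M) {c : Set (IrrCharacter K)} (hc : IsPBlock M c) (hd : blockDefect p c = 1) :
    ∃ (X : Set (IrrCharacter K)) (δ : IrrCharacter K → ℤ), X ⊆ c ∧ X.ncard = blockRank p c ∧ (∀ χ ∈ X, δ χ = 1 ∨ δ χ = -1) ∧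
      (∀ χ ∈ X, ∀ χ' ∈ X, ∀ y, p ∣ orderOf y → (δ χ : ℂ) * (χ : K → ℂ) y = (δ χ' : ℂ) * (χ' : K → ℂ) y) ∧
      (X.Nontrivial → p ≤ c.ncard → blockRank p c = p - 1) := by
  have := finite_irr (G := K)
  obtain ⟨D, hD⟩ := H592.Defect.exists_defectGroup p hM hc
  have h1 : Nat.card D = p ^ 1 := by
    obtain ⟨k, hk⟩ := (H592.Defect.isPGroup_of_isDefectGroup hD).exists_card_eq
    have h2 := H592.Defect.factorization_card_defect p hM hc hD
    rw [hk, hp.out.factorization_pow, Finsupp.single_eq_same, hd] at h2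
    rw [hk, h2]
  have h2 : IsCyclic D := isCyclic_of_prime_card (h1.trans (pow_one p))
  obtain ⟨b, hb⟩ := exists_root_centralizer hM ⟨⟨fun x y => (IsCyclic.commGroup (α := D)).mul_comm x y⟩⟩ hD hc
  obtain ⟨T, hT⟩ := exists_stabilizer hM D hb.1
  have h3 := S4695.result p M hM D h2 1 le_rfl h1 c hc hD b hb T hT _ rfl
  obtain ⟨⟨k, h4⟩, -, X, Y, h5, h6, h7, h8, -, δ, δ₀, h9, h10, h11, -⟩ := S4696.result p M hM D h2 1 le_rfl h1 c hc hD b hb T hT _ rfl
  rw [← h3] at h4 h7 h8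
  refine ⟨X, δ, h5 ▸ Set.subset_union_left, h7, h9, fun χ h χ' h' y hy =>
    (van hM hc h5 h6 h7.symm h9 h10 h11 hy h).trans (van hM hc h5 h6 h7.symm h9 h10 h11 hy h').symm, fun h h' => ?_⟩
  have h12 : 1 < blockRank p c := h7 ▸ (Set.one_lt_ncard_iff_nontrivial (s := X)).2 h
  rw [pow_one, h4, Nat.mul_div_cancel_left _ (zero_lt_one.trans h12)] at h8
  rw [h5, Set.ncard_union_eq h6, ← Nat.card_coe_set_eq, ← Nat.card_coe_set_eq, h7, h8] at h'
  have h13 := hp.out.two_le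
  generalize blockRank p c = e at *
  obtain rfl : k = 1 := by
    rcases k with _ | _ | k
    · omega
    · rfl
    · obtain ⟨e, rfl⟩ : ∃ e', e = e' + 2 := ⟨e - 2, by omega⟩
      have h14 : (e + 2) * (k + 1 + 1) = e * k + 2 * e + 2 * k + 4 := by ring
      omega
  rw [h4, mul_one]

end one

section split

variable {H : Type} [Group H] [Fintype H] {U : Subgroup H} [U.Normal] [Fintype U] {f : H → ℂ}

/-- `f` comes from a function on the `p`-regular elements of `H / U` -/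
structure Nice (p : ℕ) (U : Subgroup H) (f : H → ℂ) : Prop where
  ker : ∀ z ∈ U, ∀ y, f (z * y) = f y
  sup : ∀ y, f y ≠ 0 → ∃ z ∈ U, ¬ p ∣ orderOf (z⁻¹ * y)

theorem split (hU : U ≤ center H) (hq : IsPGroup p U) (hf : Nice p U f) (g : H → ℂ) :
    classInner g f = ∑ z : U, rg p (fun v => g (z * v)) f := by
  simp only [rg_eq_classInner, Core.classInner_def, ← Finset.mul_sum]
  rw [Finset.sum_congr rfl fun (z : U) _ => (Equiv.sum_comp (Equiv.mulLeft (z : H)⁻¹) _).symm, Finset.sum_comm]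
  refine congrArg _ (Finset.sum_congr rfl fun y _ => ?_)
  simp only [Equiv.coe_mulLeft, hf.ker _ (inv_mem (Subtype.prop _))]
  by_cases h0 : f y = 0
  · simp only [h0, map_zero, mul_zero, Finset.sum_const_zero]
  obtain ⟨z, hz, h1⟩ := hf.sup y h0
  rw [Finset.sum_eq_single ⟨z, hz⟩ (fun w _ hw => ?_) fun h => (h (Finset.mem_univ _)).elim, regPart_of_not_dvd h1,
    mul_inv_cancel_left]
  rw [regPart_of_dvd (by_contra fun h2 => hw (Subtype.ext (inv_injective (mul_right_cancel (eq_of_mk_eq hU hq h2 h1 ?_))))), zero_mul]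
  rw [QuotientGroup.mk_mul, QuotientGroup.mk_mul, (QuotientGroup.eq_one_iff _).2 (inv_mem w.2),
    (QuotientGroup.eq_one_iff _).2 (inv_mem hz)]

theorem rg_congr {g g' : H → ℂ} (h : ∀ v, ¬ p ∣ orderOf v → g v = g' v) (f : H → ℂ) : rg p g f = rg p g' f := by
  rw [rg_eq_classInner, rg_eq_classInner]
  refine congrArg (classInner · f) (funext fun v => ?_)
  by_cases hv : p ∣ orderOf v
  · rw [regPart_of_dvd hv, regPart_of_dvd hv]
  · rw [regPart_of_not_dvd hv, regPart_of_not_dvd hv, h v hv]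

theorem split' (hU : U ≤ center H) (hq : IsPGroup p U) (hf : Nice p U f) {g g' : H → ℂ}
    (h : ∀ z ∈ U, ∀ v, ¬ p ∣ orderOf v → g (z * v) = g' v) : classInner g f = Nat.card U * rg p g' f := by
  rw [split hU hq hf, Finset.sum_congr rfl fun (z : U) _ => rg_congr (h z z.2) f, Finset.sum_const, nsmul_eq_mul,
    Finset.card_univ, Nat.card_eq_fintype_card]

theorem inner_sing {g g' : H → ℂ} (h : ∀ v, p ∣ orderOf v → g' v = g v) :
    classInner g' (f - regPart p f) = classInner g f - rg p g f := by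
  simp only [rg_eq_classInner, Core.classInner_def, ← mul_sub, ← Finset.sum_sub_distrib]
  refine congrArg _ (Finset.sum_congr rfl fun y _ => ?_)
  by_cases hy : p ∣ orderOf y
  · rw [Pi.sub_apply, regPart_of_dvd hy, regPart_of_dvd hy, h y hy, sub_zero, zero_mul, sub_zero]
  · rw [Pi.sub_apply, regPart_of_not_dvd hy, regPart_of_not_dvd hy, sub_self, sub_self, map_zero, mul_zero]

theorem nice_mk {F : H ⧸ U → ℂ} (h : ∀ x, p ∣ orderOf x → F x = 0) : Nice p U fun y => F (QuotientGroup.mk y) where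
  ker z hz y := by rw [QuotientGroup.mk_mul, (QuotientGroup.eq_one_iff _).2 hz, one_mul]
  sup y h0 := by
    obtain ⟨v, h1, h2⟩ := PRegular.exists_isPRegular_lift H p U (x := QuotientGroup.mk y) fun e => h0 (h _ e)
    refine ⟨y * v⁻¹, (QuotientGroup.eq_one_iff _).1 (by rw [QuotientGroup.mk_mul, QuotientGroup.mk_inv, h2, mul_inv_cancel]), ?_⟩
    rwa [mul_inv_rev, inv_inv, inv_mul_cancel_right]

end split

theorem arith {I : Type} (T : Finset I) (d : I → ℕ) (m z : I → ℤ) (ρ : ℂ) {v : ℕ} (h1 : ∑ i ∈ T, d i ^ 2 = p ^ 2 * T.gcd d ^ 2 * v)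
    (h2 : ∀ i ∈ T, p * ρ * d i = z i) (h3 : ∑ i ∈ T, (m i - ρ * d i) * d i = 0) :
    ∃ k : ℤ, ∑ i ∈ T, (m i - ρ * d i) * conj (m i - ρ * d i) = k := by
  obtain ⟨c, hc⟩ := Finset.gcd_eq_sum_mul T fun i => (d i : ℤ)
  obtain ⟨t, ht⟩ : T.gcd (fun i => (d i : ℤ)) ∣ (T.gcd d : ℕ) :=
    Int.natAbs_dvd.1 (Int.natCast_dvd_natCast.2 (Finset.dvd_gcd fun i hi => Int.natAbs_dvd_natAbs.2 (Finset.gcd_dvd hi)))
  have h4 : p * ρ * (T.gcd d : ℕ) = ((∑ i ∈ T, z i * c i) * t : ℤ) := by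
    have h5 := congrArg (Int.cast : ℤ → ℂ) (ht.trans (congrArg (· * t) hc))
    push_cast at h5 ⊢
    rw [h5, ← mul_assoc, Finset.mul_sum]
    exact congrArg (· * _) (Finset.sum_congr rfl fun i hi => by rw [← h2 i hi, mul_assoc (p * ρ)])
  refine ⟨∑ i ∈ T, m i ^ 2 - ((∑ i ∈ T, z i * c i) * t) ^ 2 * v, ?_⟩
  have h5 := congrArg (Nat.cast : ℕ → ℂ) h1
  rw [Int.cast_sub, Int.cast_mul, Int.cast_pow, ← h4]
  push_cast at h5 ⊢
  have h6 : ∑ i ∈ T, (m i - ρ * d i) * conj (m i - ρ * d i) = ∑ i ∈ T, (m i : ℂ) ^ 2 - (ρ + conj ρ) * ∑ i ∈ T, (m i - ρ * d i) * d i -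
      ρ ^ 2 * ∑ i ∈ T, (d i : ℂ) ^ 2 := by
    simp only [Finset.mul_sum, ← Finset.sum_sub_distrib, map_sub, map_mul, map_intCast, map_natCast]
    exact Finset.sum_congr rfl fun i _ => by ring
  rw [h6, h3, h5]
  ring

section loc

variable {G : Type} [Group G] [Fintype G] {u : G}

/-- the centraliser -/
abbrev Cu (u : G) : Subgroup G := centralizer ({u} : Set G)

/-- the normaliser -/
abbrev Nu (u : G) : Subgroup G := normalizer (zpowers u : Set G)

/-- the central subgroup -/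
abbrev Uu (u : G) : Subgroup (Cu u) := (zpowers u).subgroupOf (Cu u)

theorem comm_of {y z : G} (hy : y ∈ Cu u) (hz : z ∈ zpowers u) : y * z = z * y := by
  obtain ⟨k, rfl⟩ := hz
  exact Commute.zpow_right (mem_centralizer_singleton_iff.1 hy) k

theorem zp_le : zpowers u ≤ Cu u := fun _ hz => mem_centralizer_singleton_iff.2 (comm_of (mem_centralizer_singleton_iff.2 rfl) hz).symm

theorem uu_le : Uu u ≤ center (Cu u) := fun _ hz => mem_center_iff.2 fun y => Subtype.ext (comm_of y.2 hz)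

theorem card_uu : Nat.card (Uu u) = orderOf u := by
  rw [Nat.card_congr (subgroupOfEquivOfLe zp_le).toEquiv, Nat.card_zpowers]

theorem uu_normal : (Uu u).Normal := ⟨fun z hz g => by rwa [mem_center_iff.1 (uu_le hz) g, mul_inv_cancel_right]⟩

theorem nu_le : Nu u ≤ normalizer (Cu u : Set G) := fun g hg => mem_normalizer_fintype fun y hy =>
  mem_centralizer_singleton_iff.2 (by
    have h1 := congrArg (fun x => g * x * g⁻¹) (comm_of hy ((mem_normalizer_iff''.1 hg u).1 (mem_zpowers u)))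
    simpa [mul_assoc] using h1)

theorem cu_le : Cu u ≤ Nu u := fun g hg => mem_normalizer_fintype fun z hz => by
  rwa [comm_of hg hz, mul_inv_cancel_right]

/-- the action of the normaliser -/
def ac (u : G) : Nu u →* MulAut (Cu u) := (Cu u).normalizerMonoidHom.comp (inclusion nu_le)

theorem ac_coe (g : Nu u) (y : Cu u) : (ac u g y : G) = g * y * (g : G)⁻¹ := rfl

theorem ac_mem (g : Nu u) {z : Cu u} (hz : z ∈ Uu u) : ac u g z ∈ Uu u := (mem_normalizer_iff.1 g.2 _).1 hz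

theorem ord_uu (hu : orderOf u = p) {z : G} (hz : z ∈ zpowers u) : ∃ k, orderOf z = p ^ k :=
  ((Nat.dvd_prime_pow hp.out).1 (((pow_one p).symm ▸ hu : orderOf u = p ^ 1) ▸ orderOf_dvd_of_mem_zpowers hz)).imp fun _ h => h.2

theorem part (hu : orderOf u = p) {n r : ℕ} (h : RegExp p G n r) {y z : Cu u} (hz : z ∈ Uu u) (hy : ¬ p ∣ orderOf (z⁻¹ * y)) :
    (z : G) = y * ((y : G) ^ p ^ n)⁻¹ := by
  have h1 := h.mul_pow_eq (g := (z⁻¹ * y : Cu u)) (comm_of (z⁻¹ * y).2 hz) (ord_uu hu hz)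
  rw [h.pow_of_not_dvd (g := (z⁻¹ * y : Cu u)) (by rwa [orderOf_coe]), comm_of (z⁻¹ * y).2 hz, coe_mul, coe_inv,
    coe_subtype, mul_inv_cancel_left] at h1
  rw [h1, mul_inv_rev, inv_inv, mul_inv_cancel_left]

theorem zp_eq (hu : orderOf u = p) {z : G} (hz : z ∈ zpowers u) (h1 : z ≠ 1) : zpowers z = zpowers u := by
  refine Subgroup.eq_of_le_of_card_ge (zpowers_le.2 hz) (le_of_eq ?_)
  rw [Nat.card_zpowers, Nat.card_zpowers, hu]
  exact ((hp.out.eq_one_or_self_of_dvd _ (hu ▸ orderOf_dvd_of_mem_zpowers hz)).resolve_left (mt orderOf_eq_one_iff.1 h1)).symm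

variable [Fintype (Cu u)] [Fintype (Nu u)]

/-- the restriction of the induced function -/
theorem mackey (hu : orderOf u = p) {h : Cu u → ℂ} (hs : ∀ y, h y ≠ 0 → p ∣ orderOf y ∧ ∃ z ∈ Uu u, ¬ p ∣ orderOf (z⁻¹ * y)) :
    classInner (fun y : Cu u => indFun (Cu u) h y) h = (Nat.card (Cu u) : ℂ)⁻¹ * ∑ g : Nu u, classInner (h ∘ ac u g) h := by
  simp only [Core.classInner_def, indFun_apply, ← Finset.mul_sum, mul_assoc]
  rw [Finset.sum_comm]
  refine congrArg _ (congrArg _ (Finset.sum_congr rfl fun y _ => ?_))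
  rw [← Finset.sum_mul]
  by_cases h0 : h y = 0
  · rw [h0, map_zero, mul_zero, mul_zero]
  refine congrArg (· * _) ((Equiv.sum_comp (Equiv.inv G) _).symm.trans (Fintype.sum_of_injective (Nu u).subtype
    (subtype_injective _) _ _ (fun x hx => by_contra fun h1 => hx ?_) fun g => ?_).symm)
  · rw [Equiv.inv_apply, inv_inv, ← mul_assoc] at h1
    have h2 : x * y * x⁻¹ ∈ Cu u := by_contra fun h2 => h1 (extendByZero_of_notMem _ _ h2)
    rw [extendByZero_of_mem _ _ h2] at h1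
    obtain ⟨h3, z, h4, h5⟩ := hs y h0
    obtain ⟨-, z', h6, h7⟩ := hs _ h1
    obtain ⟨n, r, -, hR⟩ := exists_regExp p G 0
    have h8 : x * z * x⁻¹ = z' := by
      rw [part hu hR h4 h5, part hu hR h6 h7, conj_pow]
      group
    have h9 := zp_eq hu h4 fun e => h5 (by rwa [show z = 1 from Subtype.ext e, inv_one, one_mul])
    refine ⟨⟨x, mem_normalizer_fintype fun w hw => ?_⟩, rfl⟩
    obtain ⟨k, rfl⟩ : w ∈ zpowers (z : G) := h9 ▸ hw
    show x * (z : G) ^ k * x⁻¹ ∈ zpowers u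
    rw [← conj_zpow, h8]
    exact zpow_mem h6 k
  · rw [Equiv.inv_apply, inv_inv, ← mul_assoc]
    exact (extendByZero_of_mem _ _ (ac u g y).2).symm

variable {B : Set (IrrCharacter G)} {D : Subgroup G}

/-- **the norm of the induced function** -/
theorem key (hM : IsPModular p M) (hB : IsPBlock M B) (hD : IsDefectGroup p M B D) (hR : R1 p B) (hc : Nat.card D = p ^ 2)
    (hu : orderOf u = p) {f : Cu u → ℂ} (hg : IsGeneralizedCharacter _ f) (hf : Nice p (Uu u) f)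
    (hb : ∀ χ, χ ∉ B → ∀ z ∈ Uu u, z ≠ 1 → rg p (fun v => (χ : G → ℂ) (z * v : Cu u)) f = 0) :
    ∃ k : ℤ, ((p : ℂ) - 1) * ∑ g : Nu u, classInner (f ∘ ac u g) f = k * p * Nat.card (Cu u) := by
  classical
  have := finite_irr (G := G)
  have := Fintype.ofFinite (IrrCharacter G)
  have := Fintype.ofFinite (Uu u)
  have := uu_normal (u := u)
  have hq : IsPGroup p (Uu u) := IsPGroup.of_card (card_uu.trans (hu.trans (pow_one p).symm))
  set h := f - regPart p f with hh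
  have h1 : ∀ y, h y ≠ 0 → p ∣ orderOf y ∧ f y ≠ 0 := fun y hy => by
    have h1 : p ∣ orderOf y := by_contra fun e => hy (by rw [hh, Pi.sub_apply, regPart_of_not_dvd e, sub_self])
    exact ⟨h1, by rwa [hh, Pi.sub_apply, regPart_of_dvd h1, sub_zero] at hy⟩
  have hI := Brauer.indFun_isClassFunction (Cu u) h
  have h2 : ∀ F, IsClassFunction G F → classInner F (indFun (Cu u) h) = classInner (fun y : Cu u => F y) h := fun F hF => by
    rw [← classInner_conj_symm, Brauer.classInner_indFun _ _ _ _ hF, classInner_conj_symm]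
  have h3 := mackey hu fun y hy => ⟨(h1 y hy).1, hf.sup y (h1 y hy).2⟩
  rw [← h2 _ hI, classInner_eq_sum hI hI] at h3
  choose m hm using fun χ : IrrCharacter G => gen_inner (gen_restrict (Cu u) (gen_of_irr χ.2)) hg
  have h4 : ∀ χ : IrrCharacter G, classInner (indFun (Cu u) h) χ = conj (m χ - rg p (fun y : Cu u => (χ : G → ℂ) y) f) := fun χ => by
    rw [← classInner_conj_symm, h2 _ (isIrr_isClassFunction χ.2), inner_sing fun _ _ => rfl, hm]
  have h5 : ∀ χ, χ ∉ B → classInner (indFun (Cu u) h) χ = 0 := fun χ hχ => by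
    rw [h4, ← hm, split uu_le hq hf, Finset.sum_eq_single (1 : Uu u) (fun (z : Uu u) _ hz => hb χ hχ z z.2 fun e => hz (Subtype.ext e))
      fun e => (e (Finset.mem_univ _)).elim]
    simp
  have := Local.isPrime_of_isPModular hM
  obtain ⟨χ₀, h6⟩ := Basic.isPBlock_nonempty hB
  set ρ := rg p (fun y : Cu u => (χ₀ : G → ℂ) y) f / (χ₀ : G → ℂ) 1
  have h7 : ∀ χ ∈ B, rg p (fun y : Cu u => (χ : G → ℂ) y) f = ρ * charDegree (χ : G → ℂ) := fun χ hχ => by
    rw [← irr_one_eq_charDegree χ.2, div_mul_eq_mul_div, mul_div_assoc, mul_comm, ← rg_smul_left]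
    exact rg_congr (fun v hv => by
      rw [Pi.smul_apply, smul_eq_mul, div_mul_eq_mul_div, eq_div_iff (isIrr_apply_one_ne_zero χ₀.2), mul_comm ((χ : G → ℂ) 1)]
      exact hR χ hχ χ₀ h6 v (by rwa [IsPRegular, orderOf_coe])) f
  obtain ⟨n, r, -, hE⟩ := exists_regExp p (Cu u) 0
  choose z hz using fun χ : IrrCharacter G => gen_inner (isGeneralizedCharacter_pow hE
    (isCharacter_comp (Cu u).subtype (isIrr_isCharacter χ.2))) hg
  set T := (Set.toFinite B).toFinset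
  have hT : ∀ χ, χ ∈ T ↔ χ ∈ B := fun _ => Set.Finite.mem_toFinset _
  have h8 : ∀ F : IrrCharacter G → ℂ, ∑ χ : IrrCharacter G, classInner (indFun (Cu u) h) χ * F χ =
      ∑ χ ∈ T, conj (m χ - ρ * charDegree (χ : G → ℂ)) * F χ := fun F => by
    rw [← Finset.sum_subset (Finset.subset_univ T) fun χ _ hχ => by rw [h5 χ (mt (hT χ).2 hχ), zero_mul]]
    exact Finset.sum_congr rfl fun χ hχ => by rw [h4, h7 χ ((hT χ).1 hχ)]
  obtain ⟨h9, v, -, -, -, h10⟩ := S4641.result p M hM B hB D hD _ 2 rfl hc (T.gcd fun χ => charDegree (χ : G → ℂ))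
    (fun χ hχ => Finset.gcd_dvd ((hT χ).2 hχ)) fun _ h9 => Finset.dvd_gcd fun χ hχ => h9 χ ((hT χ).1 hχ)
  have h11 : 2 ≤ (Nat.card G).factorization p :=
    (hp.out.pow_dvd_iff_le_factorization Nat.card_pos.ne').1 (hc ▸ card_subgroup_dvd_card D)
  obtain ⟨k, hk⟩ := arith (p := p) T (fun χ => charDegree (χ : G → ℂ)) m z ρ (v := v) (by
      rw [← finsum_mem_eq_finite_toFinset_sum _ (Set.toFinite B), h10]
      obtain ⟨a, ha⟩ := Nat.exists_eq_add_of_le h11
      obtain ⟨t, ht⟩ := Nat.ordProj_dvd (T.gcd fun χ => charDegree (χ : G → ℂ)) p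
      rw [h9, ha, Nat.add_sub_cancel_left] at ht
      rw [ha, ht, Nat.add_sub_cancel_left, Nat.mul_div_cancel_left _ (pow_pos hp.out.pos a), show 2 * (2 + a) - 2 = 2 + a * 2 by omega]
      ring)
    (fun χ hχ => by
      rw [← hz, mul_assoc, ← h7 χ ((hT χ).1 hχ), show (p : ℂ) = Nat.card (Uu u) by rw [card_uu, hu]]
      exact (split' uu_le hq hf fun w hw y hy => by
        show (χ : G → ℂ) ((w * y) ^ p ^ n : Cu u) = _
        rw [← mem_center_iff.1 (uu_le hw), hE.mul_pow_eq (mem_center_iff.1 (uu_le hw) y) (orderOf_coe w ▸ ord_uu hu hw),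
          hE.pow_of_not_dvd hy]).symm)
    (by
      have h12 := congrFun (classFunction_eq_sum hI) 1
      rw [Finset.sum_apply, indFun_apply, Finset.sum_eq_zero fun x _ => by
        rw [mul_one, inv_mul_cancel, extendByZero_of_mem _ _ (one_mem _)]
        exact by_contra fun e => hp.out.not_dvd_one (orderOf_one (G := Cu u) ▸ (h1 _ e).1), mul_zero] at h12
      have h13 := congrArg conj (h12.trans (h8 fun χ => (χ : G → ℂ) 1))
      rw [map_zero, map_sum] at h13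
      exact (Finset.sum_congr rfl fun χ _ => by
        rw [map_mul, Complex.conj_conj, irr_one_eq_charDegree χ.2, map_natCast]).trans h13.symm)
  refine ⟨k, ?_⟩
  rw [h8, Finset.sum_congr rfl fun χ hχ => by rw [h4, h7 χ ((hT χ).1 hχ), Complex.conj_conj, mul_comm], hk,
    eq_inv_mul_iff_mul_eq₀ card_ne_zero_complex] at h3
  rw [mul_right_comm, mul_comm (k : ℂ), h3, Finset.mul_sum, Finset.sum_mul]
  refine Finset.sum_congr rfl fun g _ => ?_
  rw [inner_sing (g := f ∘ ac u g) fun v hv => by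
    rw [Function.comp_apply, hh, Pi.sub_apply, regPart_of_dvd (by rwa [MulEquiv.orderOf_eq]), sub_zero, Function.comp_apply],
    split' uu_le hq hf (g' := f ∘ ac u g) fun w hw y _ => by
      rw [Function.comp_apply, map_mul, hf.ker _ (ac_mem g hw), Function.comp_apply], card_uu, hu]
  ring

theorem col (hM : IsPModular p M) (hu : orderOf u = p) {β : Set (IrrCharacter (Cu u))} (hβ : IsInducedBlock M (Cu u) β B)
    {ψ : IrrCharacter (Cu u)} (hψ : ψ ∈ β) {χ : IrrCharacter G} (hχ : χ ∉ B) {z : Cu u} (hz : z ∈ Uu u) (h1 : z ≠ 1) :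
    rg p (fun v => (χ : G → ℂ) (z * v : Cu u)) ψ = 0 := by
  have := Local.isPrime_of_isPModular hM
  refine H639.wt_eq_zero hM (ord_uu hu hz) ?_ (isPBlock_blockOf χ) (mem_blockOf_self χ) fun h => hχ ?_
  · show centralizer _ = _
    rw [← centralizer_closure, ← zpowers_eq_closure, ← zp_eq hu hz fun e => h1 (Subtype.ext e), zpowers_eq_closure, centralizer_closure]
  · obtain ⟨χ₀, h2⟩ := Basic.isPBlock_nonempty hβ.2.1
    rw [isPBlock_eq_blockOf hβ.2.1 h2]
    exact fun g => Local.memLocalIdeal_sub_trans (Local.memLocalIdeal_sub_comm (hβ.2.2 ψ hψ χ₀ h2 g))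
      (h.2.2 ψ (mem_blockOf_self ψ) χ (mem_blockOf_self χ) g)

/-- the action on the characters -/
@[reducible] noncomputable def ma (u : G) : MulAction (Nu u) (IrrCharacter (Cu u)) where
  smul g ψ := irrMap (ac u g) ψ
  one_smul ψ := (congrArg (irrMap · ψ) (map_one (ac u))).trans (irrMap_refl ψ)
  mul_smul g h ψ := (congrArg (irrMap · ψ) (map_mul (ac u) g h)).trans (irrMap_irrMap _ _ ψ).symm

attribute [local instance] ma

theorem ma_inv (g : Nu u) (ψ : IrrCharacter (Cu u)) : (ψ : Cu u → ℂ) ∘ ac u g = (g⁻¹ • ψ : IrrCharacter (Cu u)) :=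
  funext fun y => by
    show _ = (ψ : Cu u → ℂ) ((ac u g⁻¹)⁻¹ y)
    rw [map_inv, inv_inv, Function.comp_apply]

theorem sum_ac (ψ ψ' : IrrCharacter (Cu u)) :
    ∑ g : Nu u, classInner ((ψ : Cu u → ℂ) ∘ ac u g) ψ' = Nat.card {g : Nu u // g • ψ = ψ'} := by
  classical
  rw [← Equiv.sum_comp (Equiv.inv (Nu u)), Nat.card_eq_fintype_card, Fintype.card_subtype, Finset.card_filter]
  push_cast
  exact Finset.sum_congr rfl fun g _ => by
    rw [Equiv.inv_apply, ma_inv, inv_inv, classInner_irr (g • ψ).2 ψ'.2]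
    exact if_congr Subtype.coe_inj rfl rfl

theorem stab (hu : orderOf u = p) : ∃ e, e ∣ p - 1 ∧ ∀ ψ : IrrCharacter (Cu u), ∃ s,
    Nat.card (MulAction.stabilizer (Nu u) ψ) = Nat.card (Cu u) * s ∧ (MulAction.orbit (Nu u) ψ).ncard * s = e := by
  obtain ⟨e, h1, h2⟩ := H904.SylOne.card_nc (P := zpowers u) ((Nat.card_zpowers u).trans hu)
  rw [show centralizer (zpowers u : Set G) = Cu u by rw [zpowers_eq_closure, centralizer_closure]] at h2
  refine ⟨e, h1, fun ψ => ?_⟩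
  obtain ⟨s, hs⟩ := card_dvd_of_le (show (Cu u).subgroupOf (Nu u) ≤ MulAction.stabilizer (Nu u) ψ from fun g hg =>
    inv_mem_iff.1 (Subtype.ext ((ma_inv g ψ).symm.trans (funext fun y => irr_conj ψ.2 y ⟨g, hg⟩))))
  rw [Nat.card_congr (subgroupOfEquivOfLe cu_le).toEquiv] at hs
  refine ⟨s, hs, Nat.eq_of_mul_eq_mul_left (Nat.card_pos (α := Cu u)) ?_⟩
  rw [← h2, mul_left_comm, ← hs, ← MulAction.index_stabilizer, index_mul_card]

theorem num {a s a' s' e : ℕ} (h : a * s = e) (h' : a' * s' = e) (he : e ∣ p - 1) (hd : p ∣ s + s') (hs : s' ≤ s) :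
    a = 1 ∧ a' = p - 1 := by
  have h1 := hp.out.two_le
  obtain ⟨k, hk⟩ := he
  have h2 : 0 < s' := Nat.pos_of_ne_zero (by rintro rfl; rw [← h', mul_zero, zero_mul] at hk; omega)
  have h3 := Nat.le_of_dvd (by omega) hd
  have h4 : a * k = 1 := by
    rw [← h, mul_right_comm] at hk
    generalize a * k = c at *
    rcases c with _ | _ | c
    · omega
    · rfl
    · have h5 : (c + 1 + 1) * s = c * s + 2 * s := by ring
      omega
  obtain rfl := Nat.eq_one_of_mul_eq_one_right h4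
  obtain rfl := Nat.eq_one_of_mul_eq_one_left h4
  obtain rfl : s' = 1 := by
    obtain ⟨j, hj⟩ := hd
    rcases j with _ | _ | j
    · omega
    · omega
    · have h5 : p * (j + 1 + 1) = p * j + 2 * p := by ring
      omega
  omega

variable [(Uu u).Normal] {β : Set (IrrCharacter (Cu u))}

/-- inflation -/
noncomputable abbrev fl : IrrCharacter (Cu u ⧸ Uu u) → IrrCharacter (Cu u) := H644.CentralQuot.infl (Uu u)

/-- two characters which are not conjugate -/
theorem two (hM : IsPModular p M) (hD : IsDefectGroup p M B D) (hR : R1 p B) (hc : Nat.card D = p ^ 2) (hu : orderOf u = p)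
    (hβ : IsInducedBlock M (Cu u) β B) {θ θ' : IrrCharacter (Cu u ⧸ Uu u)} (h : fl θ ∈ β) (h' : fl θ' ∈ β) {δ δ' : ℤ}
    (hδ : δ = 1 ∨ δ = -1) (hδ' : δ' = 1 ∨ δ' = -1)
    (hv : ∀ y, p ∣ orderOf y → (δ : ℂ) * (θ : Cu u ⧸ Uu u → ℂ) y = (δ' : ℂ) * (θ' : Cu u ⧸ Uu u → ℂ) y)
    (hn : ∀ g : Nu u, g • fl θ ≠ fl θ') :
    (MulAction.orbit (Nu u) (fl θ)).ncard = 1 ∧ (MulAction.orbit (Nu u) (fl θ')).ncard = p - 1 ∨
      (MulAction.orbit (Nu u) (fl θ')).ncard = 1 ∧ (MulAction.orbit (Nu u) (fl θ)).ncard = p - 1 := by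
  have := Fintype.ofFinite (Uu u)
  obtain ⟨k, hk⟩ := key (f := (δ : ℂ) • (fl θ : Cu u → ℂ) - (δ' : ℂ) • (fl θ' : Cu u → ℂ)) hM hβ.2.1 hD hR hc hu
    (gen_sub (gen_intCast_smul _ (gen_of_irr (fl θ).2)) (gen_intCast_smul _ (gen_of_irr (fl θ').2)))
    (nice_mk (F := fun y => (δ : ℂ) * (θ : Cu u ⧸ Uu u → ℂ) y - (δ' : ℂ) * (θ' : Cu u ⧸ Uu u → ℂ) y) fun y hy =>
      sub_eq_zero.2 (hv y hy)) fun χ hχ z hz h1 => by
      rw [rg_eq_classInner, classInner_sub_right, classInner_smul_right, classInner_smul_right, ← rg_eq_classInner,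
        ← rg_eq_classInner, col hM hu hβ h hχ hz h1, col hM hu hβ h' hχ hz h1, mul_zero, mul_zero, sub_zero]
  obtain ⟨e, he, hs⟩ := stab hu
  obtain ⟨s, h1, h2⟩ := hs (fl θ)
  obtain ⟨s', h3, h4⟩ := hs (fl θ')
  have h5 : ∀ ψ ψ' : IrrCharacter (Cu u), (∀ g : Nu u, g • ψ ≠ ψ') → Nat.card {g : Nu u // g • ψ = ψ'} = 0 := fun ψ ψ' h5 =>
    @Nat.card_of_isEmpty _ ⟨fun g => h5 g.1 g.2⟩
  simp only [Pi.sub_comp, Pi.smul_comp, classInner_sub_left, classInner_sub_right, classInner_smul_left, classInner_smul_right,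
    Finset.sum_sub_distrib, ← Finset.mul_sum, sum_ac, map_intCast, h5 _ _ hn,
    h5 _ _ fun g e => hn g⁻¹ (inv_smul_eq_iff.2 e.symm)] at hk
  erw [h1, h3] at hk
  have h6 : ((p : ℤ) - 1) * (s + s') = k * p := by
    have h7 : ((p : ℂ) - 1) * (s + s') = k * p := mul_right_cancel₀ (card_ne_zero_complex (G := Cu u)) (by
      rw [← hk]
      rcases hδ with rfl | rfl <;> rcases hδ' with rfl | rfl <;> push_cast <;> ring)
    exact_mod_cast h7
  have h7 : p ∣ s + s' := Int.natCast_dvd_natCast.1 ⟨s + s' - k, by push_cast; linear_combination -h6⟩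
  rcases le_total s' s with h8 | h8
  · exact Or.inl (num h2 h4 he h7 h8)
  · exact Or.inr (num h4 h2 he (add_comm s s' ▸ h7) h8)

/-- the conclusion -/
def Cc (p : ℕ) (u : G) (β : Set (IrrCharacter (Cu u))) : Prop :=
  ∃ A ⊆ β, A.ncard = blockRank p β ∧ (∀ ψ ∈ A, ∀ z ∈ Uu u, (ψ : Cu u → ℂ) z = (ψ : Cu u → ℂ) 1) ∧
    ∀ ψ ∈ A, ∀ ψ' ∈ A, ∃ g : Nu u, g • ψ = ψ'

theorem triv (θ : IrrCharacter (Cu u ⧸ Uu u)) {z : Cu u} (hz : z ∈ Uu u) : (fl θ : Cu u → ℂ) z = (fl θ : Cu u → ℂ) 1 := by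
  rw [infl_apply, (QuotientGroup.eq_one_iff _).2 hz, infl_one]

theorem cc_of {X : Set (IrrCharacter (Cu u ⧸ Uu u))} (h : X ⊆ defl _ β) (hr : X.ncard = blockRank p β)
    (hc : ∀ θ ∈ X, ∀ θ' ∈ X, ∃ g : Nu u, g • fl θ = fl θ') : Cc p u β :=
  ⟨fl '' X, Set.image_subset_iff.2 h, (Set.ncard_image_of_injective _ (infl_injective _)).trans hr,
    Set.forall_mem_image.2 fun θ _ _ hz => triv θ hz, Set.forall_mem_image.2 fun θ h => Set.forall_mem_image.2 (hc θ h)⟩

theorem cc_orb (hM : IsPModular p M) (hb : IsPBlock M β) {θ θ' : IrrCharacter (Cu u ⧸ Uu u)} (h : fl θ ∈ β) (h' : fl θ' ∈ β)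
    (hn : ∀ g : Nu u, g • fl θ' ≠ fl θ) (h1 : (MulAction.orbit (Nu u) (fl θ)).ncard = 1)
    (h2 : (MulAction.orbit (Nu u) (fl θ')).ncard = p - 1) (hr : p ≤ (defl (Uu u) β).ncard → blockRank p β = p - 1) : Cc p u β := by
  have := Local.isPrime_of_isPModular hM
  have := finite_irr (G := Cu u)
  have := Fintype.ofFinite (Uu u)
  obtain ⟨a, ha⟩ := Set.ncard_eq_one.1 h1
  have h3 : MulAction.orbit (Nu u) (fl θ') ⊆ β := by
    rintro _ ⟨g, rfl⟩
    have h4 : g • fl θ = fl θ := (Set.mem_singleton_iff.1 (ha ▸ MulAction.mem_orbit _ g)).trans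
      (Set.mem_singleton_iff.1 (ha ▸ MulAction.mem_orbit_self _)).symm
    rw [isPBlock_eq_blockOf hb h, ← h4]
    exact (sameBlock_irrMap_iff _ _ _).2 (mem_blockOf.1 (isPBlock_eq_blockOf hb h ▸ h'))
  have h4 : ∀ ψ ∈ MulAction.orbit (Nu u) (fl θ'), ∀ z ∈ Uu u, (ψ : Cu u → ℂ) z = (ψ : Cu u → ℂ) 1 := by
    rintro _ ⟨g, rfl⟩ z hz
    beta_reduce
    rw [← inv_inv g, ← ma_inv, Function.comp_apply, Function.comp_apply, map_one, triv θ' (ac_mem _ hz)]
  refine ⟨_, h3, h2.trans (hr ?_).symm, h4, fun ψ h5 ψ' h6 => MulAction.mem_orbit_iff.1 (MulAction.orbit_eq_iff.2 h5 ▸ h6)⟩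
  rw [← Set.ncard_image_of_injective _ (infl_injective _), ← Nat.sub_add_cancel hp.out.one_le, ← h2,
    ← Set.ncard_insert_of_notMem (a := fl θ) fun e => (MulAction.mem_orbit_iff.1 e).elim hn]
  refine Set.ncard_le_ncard (Set.insert_subset ⟨θ, h, rfl⟩ fun ψ hψ => ?_)
  obtain ⟨η, hη⟩ := Deflate.exists_deflation (Uu u) (ψ : Cu u → ℂ) ψ.2 (by
    rw [Finset.sum_congr rfl fun (z : Uu u) _ => h4 ψ hψ z z.2, Finset.sum_const, Finset.card_univ, nsmul_eq_mul]
    exact mul_ne_zero (by exact_mod_cast Fintype.card_ne_zero) (isIrr_apply_one_ne_zero ψ.2))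
  obtain rfl : fl η = ψ := Subtype.ext hη.symm
  exact ⟨η, h3 hψ, rfl⟩

theorem cc (hM : IsPModular p M) (hD : IsDefectGroup p M B D) (hR : R1 p B) (hc : Nat.card D = p ^ 2) (hu : orderOf u = p)
    (hβ : IsInducedBlock M (Cu u) β B) : Cc p u β := by
  have := Fintype.ofFinite (Cu u ⧸ Uu u)
  have := finite_irr (G := Cu u ⧸ Uu u)
  have h1 : Nat.card (Uu u) = p ^ 1 := card_uu.trans (hu.trans (pow_one p).symm)
  have h2 := isPBlock_defl hM uu_le (IsPGroup.of_card h1) hβ.1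
  have h3 := blockRank_defl hM uu_le (IsPGroup.of_card h1) hβ.1
  have h4 := blockDefect_defl hM uu_le h1 hβ.1
  obtain ⟨Q, hQ⟩ := H592.Defect.exists_defectGroup p hM hβ.1
  obtain ⟨E, hE, h5⟩ := S0917.result p M hM _ β hβ.1 B hβ.2.1 hβ Q hQ
  have h6 := (Nat.factorization_le_iff_dvd Nat.card_pos.ne' Nat.card_pos.ne').2 (card_dvd_of_le h5) p
  rw [card_subtype, H592.Defect.factorization_card_defect p hM hβ.1 hQ, H592.Defect.factorization_card_defect p hM hβ.2.1 hE,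
    ← H592.Defect.factorization_card_defect p hM hβ.2.1 hD, hc, hp.out.factorization_pow, Finsupp.single_eq_same] at h6
  rcases (by omega : blockDefect p (defl (Uu u) β) = 0 ∨ blockDefect p (defl (Uu u) β) = 1) with h7 | h7
  · obtain ⟨h8, h9⟩ := (S4733.result p M hM _ h2).2.1.1 h7
    exact cc_of subset_rfl (h8.trans (h9.symm.trans h3)) fun θ h θ' h' => ⟨1, by
      rw [one_smul, (Set.ncard_le_one (Set.toFinite _)).1 (le_of_eq h8) θ h θ' h']⟩
  obtain ⟨X, δ, h8, h9, h10, h11, h12⟩ := pat hM h2 h7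
  rw [h3] at h9 h12
  by_cases h13 : ∀ θ ∈ X, ∀ θ' ∈ X, ∃ g : Nu u, g • fl θ = fl θ'
  · exact cc_of h8 h9 h13
  push Not at h13
  obtain ⟨θ, h, θ', h', h13⟩ := h13
  have h14 := h12 ⟨θ, h, θ', h', fun e => h13 1 (by rw [one_smul, e])⟩
  rcases two hM hD hR hc hu hβ (h8 h) (h8 h') (h10 θ h) (h10 θ' h') (h11 θ h θ' h') h13 with ⟨h15, h16⟩ | ⟨h15, h16⟩
  · exact cc_orb hM hβ.1 (h8 h) (h8 h') (fun g e => h13 g⁻¹ (inv_smul_eq_iff.2 e.symm)) h15 h16 h14
  · exact cc_orb hM hβ.1 (h8 h') (h8 h) h13 h15 h16 h14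

end loc

end Desc

/-- **descent** -/
theorem boxDesc : BoxDesc := fun p M hM G _ _ B D _ hD hR hc u hu β hβ => by
  have : Fact p.Prime := ⟨hM.1⟩
  have := Fintype.ofFinite G
  have := Fintype.ofFinite (Desc.Cu u)
  have := Fintype.ofFinite (Desc.Nu u)
  have := Desc.uu_normal (u := u)
  obtain ⟨A, h1, h2, h3, h4⟩ := Desc.cc hM hD hR hc hu hβ
  refine ⟨A, h1, h2, fun ψ h y hy => h3 ψ h y (mem_subgroupOf.2 (by rw [hy]; exact mem_zpowers _)), fun ψ h ψ' h' => ?_⟩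
  obtain ⟨g, rfl⟩ := h4 ψ h ψ' h'
  refine ⟨g, g.2, fun y y' e => ?_⟩
  obtain rfl : y' = Desc.ac u g y := Subtype.ext e
  exact irrMap_apply' _ _ _

end Cfsg.Agent.OM.Lo
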