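import Cfsg.Agent.OM.Lo.DEA
import Cfsg.Agent.OM.Lo.Desc
import Cfsg.Agent.H658.RankTwo

/-!
# OM (S4894): defect groups of order `49` (helper35)

* `DE.de0` : the case of rank one, Sylow defect group;  `boxDE_of`.
-/

set_option autoImplicit false
set_option linter.unusedSectionVars false

namespace Cfsg.Agent.OM.Lo

open Cfsg Subgroup Cfsg.Agent.Characters Cfsg.Agent.Characters.Core Cfsg.Agent.Blocks Cfsg.Agent.Blocks.Basic
  Cfsg.Agent.SmallSimple.ThetaSetup Cfsg.Agent.SmallSimple.ThetaOrtho Cfsg.Agent.H644.CentralQuot Cfsg.Agent.H658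
  Cfsg.Agent.H649 Cfsg.Agent.OM.Lo.Desc

namespace DE

variable [Fact (Nat.Prime 7)] {M : Ideal AlgInt}

/-- the inertial index is divisible by three -/
theorem rank3 (hM : IsPModular 7 M) {L : Type} [Group L] [Finite L] {P : Subgroup L} (hP : Nat.card P = 7)
    (hn : ¬ 3 ∣ Nat.card (centralizer (P : Set L))) {t : L} (ht : t ∈ normalizer (P : Set L)) (t3 : orderOf t = 3)
    (hc : ∀ y ∈ centralizer (P : Set L), ¬ 7 ∣ orderOf y → t * y = y * t) {c : Set (IrrCharacter L)} (hb : IsPBlock M c)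
    (hD : IsDefectGroup 7 M c P) : 2 < blockRank 7 c := by
  have := Local.isPrime_of_isPModular hM
  have h1 : IsCyclic P := isCyclic_of_prime_card hP
  obtain ⟨b, h2⟩ := exists_root_centralizer hM inferInstance hD hb
  obtain ⟨T, hT⟩ := exists_stabilizer hM P h2.1
  have h3 : t ∈ T := (hT t).2 ⟨ht, fun θ hθ θ' h => by
    have h4 : ∀ x, IsPRegular 7 x → (θ' : _ → ℂ) x = (θ : _ → ℂ) x := fun x hx =>
      h x x (eq_mul_inv_iff_mul_eq.2 (hc x x.2 (by rwa [orderOf_coe])).symm)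
    rw [isPBlock_eq_blockOf h2.1 hθ]
    exact mem_blockOf.2 (sameBlock_of_prop hM θ.2 θ'.2 fun x hx => by
      rw [h4 x hx, h4 1 (by rw [IsPRegular, orderOf_one]; decide)])⟩
  rw [S4695.result 7 M hM P h1 1 le_rfl hP c hb hD b h2 T hT _ rfl]
  have h4 := t3 ▸ T.orderOf_dvd_natCard h3
  rw [← ((centralizer (P : Set L)).subgroupOf T).card_mul_index, Nat.prime_three.dvd_mul] at h4
  exact Nat.le_of_dvd (Nat.pos_of_ne_zero index_ne_zero_of_finite)
    (h4.resolve_left fun h => hn (h.trans (card_comap_dvd_of_injective _ _ T.subtype_injective)))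

attribute [local instance] Desc.ma

variable {G : Type} [Group G] [Fintype G] {u : G} [Fintype (Cu u)] [Fintype (Nu u)] [(Uu u).Normal]

/-- the passage to the normaliser -/
theorem loc (hu : orderOf u = 7) {P : Sylow 7 (Cu u ⧸ Uu u)} (hP : Nat.card P = 7)
    (hn : ¬ 3 ∣ Nat.card (centralizer (P : Set (Cu u ⧸ Uu u)))) {Y : Subgroup (Cu u ⧸ Uu u)} (hY : IsComp 7 (P : Subgroup _) Y)
    {t : Cu u ⧸ Uu u} (ht : t ∈ normalizer ((P : Subgroup (Cu u ⧸ Uu u)) : Set (Cu u ⧸ Uu u))) (t3 : orderOf t = 3) (hc : ∀ y ∈ Y, t * y = y * t)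
    {θ : IrrCharacter Y} {A : Set (IrrCharacter (Cu u))} (h1 : A ⊆ fl '' Over P (θ : Y → ℂ)) (h2 : 2 < A.ncard)
    (h3 : ∀ ψ ∈ A, ∀ ψ' ∈ A, ∃ g : Nu u, g • ψ = ψ') : False := by
  have := finite_irr (G := Cu u)
  obtain ⟨φ, hφ⟩ := exists_phi (zpowers u) ((Nat.card_zpowers u).trans hu)
  rw [show centralizer (zpowers u : Set G) = Cu u by rw [zpowers_eq_closure, centralizer_closure]] at hφ
  obtain ⟨ψ, h4, ψ', h5, h6, g, h7, h8⟩ : ∃ ψ ∈ A, ∃ ψ' ∈ A, ψ ≠ ψ' ∧ ∃ g : Nu u, g • ψ = ψ' ∧ φ g ^ 3 = 1 := by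
    obtain ⟨a, ha, b, hb, c, hc, ab, ac, bc⟩ := (Set.two_lt_ncard (s := A)).1 h2
    obtain ⟨g, rfl⟩ := h3 a ha b hb
    obtain ⟨g', rfl⟩ := h3 a ha c hc
    rcases z3 (φ g) (φ g') with h | h | h
    · exact ⟨_, ha, _, hb, ab, g, rfl, h⟩
    · exact ⟨_, ha, _, hc, ac, g', rfl, h⟩
    · exact ⟨_, hb, _, hc, bc, g' * g⁻¹, by rw [mul_smul, inv_smul_smul], by rwa [map_mul, map_inv]⟩
  obtain ⟨ψ, h9, rfl⟩ := h1 h4
  obtain ⟨ψ', h10, rfl⟩ := h1 h5
  let Q := (zpowers u).subgroupOf (Nu u)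
  let j : Cu u ⧸ Uu u →* Nu u ⧸ Q := QuotientGroup.map _ Q (inclusion cu_le) fun _ h => h
  let μ : Nu u ⧸ Q →* (ZMod 7)ˣ := QuotientGroup.lift Q φ fun _ h => (hφ _).2 (zp_le h)
  have hj : Function.Injective j := (injective_iff_map_eq_one j).2 fun x h => by
    obtain ⟨x, rfl⟩ := QuotientGroup.mk_surjective x
    exact (QuotientGroup.eq_one_iff _).2 ((QuotientGroup.eq_one_iff (N := Q) _).1 h)
  have hμ : ∀ x, μ (j x) = 1 := fun x => by
    obtain ⟨x, rfl⟩ := QuotientGroup.mk_surjective x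
    exact (hφ _).2 x.2
  let K := ((powMonoidHom 3).comp μ).ker
  have := Fintype.ofFinite K
  have := Fintype.ofFinite (Cu u ⧸ Uu u)
  let ι : Cu u ⧸ Uu u →* K := j.codRestrict K fun x => (congrArg (· ^ 3) (hμ x)).trans (one_pow 3)
  have hι : Function.Injective ι := fun x y h => hj (congrArg Subtype.val h)
  refine al hι (μ := μ.comp K.subtype) (fun k => ⟨fun h => ?_, ?_⟩) (fun k => k.2) hP hn hY ht (fun h => ?_) (t3 ▸ pow_orderOf_eq_one t)
    hc θ.2 h9 h10 (fun h => h6 (congrArg fl h)) (s := ⟨QuotientGroup.mk g, h8⟩) fun x x' h => ?_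
  · obtain ⟨k, hk⟩ := k
    obtain ⟨k, rfl⟩ := QuotientGroup.mk_surjective k
    exact ⟨QuotientGroup.mk ⟨k, (hφ k).1 h⟩, rfl⟩
  · rintro ⟨x, rfl⟩
    exact hμ x
  · rw [h, orderOf_one] at t3
    omega
  · obtain ⟨x, rfl⟩ := QuotientGroup.mk_surjective x
    obtain rfl : x' = QuotientGroup.mk (ac u g x) := hι (h.trans rfl)
    exact (congrArg (fun χ : IrrCharacter (Cu u) => (χ : Cu u → ℂ) (ac u g x)) h7).symm.trans (irrMap_apply' _ _ _)

/-- **rank one, Sylow defect group** -/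
theorem de0 (hM : IsPModular 7 M) {G : Type} [Group G] [Finite G] {B : Set (IrrCharacter G)} {D : Subgroup G} (hB : IsPBlock M B)
    (hD : IsDefectGroup 7 M B D) (hR : R1 7 B) (hc : Nat.card D = 7 ^ 2) (hn : ¬ IsCyclic D) (hS : ¬ 7 ^ 3 ∣ Nat.card G)
    (h3 : ¬ 3 ∣ Nat.card (centralizer (D : Set G))) {u : G} (hu : u ∈ D) (u1 : u ≠ 1) {t : G} (ht : t ∈ normalizer (D : Set G))
    (t3 : orderOf t = 3) (tu : Commute t u) (hy : ∀ y ∈ centralizer (D : Set G), ¬ 7 ∣ orderOf y → Commute t y) : False := by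
  have : Fact (Nat.Prime 3) := ⟨Nat.prime_three⟩
  have := Fintype.ofFinite G
  have := Fintype.ofFinite (Cu u)
  have := Fintype.ofFinite (Nu u)
  have := Fintype.ofFinite (Uu u)
  have hab := IsPGroup.isMulCommutative_of_card_eq_prime_sq hc
  have ho : orderOf u = 7 := by
    obtain ⟨k, h1, h2⟩ := (Nat.dvd_prime_pow Fact.out).1 (hc ▸ D.orderOf_dvd_natCard hu)
    obtain rfl | rfl | rfl : k = 0 ∨ k = 1 ∨ k = 2 := by omega
    · exact absurd (orderOf_eq_one_iff.1 h2) u1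
    · exact h2
    · exact absurd (isCyclic_of_orderOf_eq_card ⟨u, hu⟩ (by rw [hc, ← h2, ← orderOf_coe])) hn
  obtain ⟨β, U, _, h1, h2, h4, -, h5, -, -, h6⟩ := exists_major_defl hM hB hD hab hu
  obtain rfl : Uu u = U := h4 ▸ Subgroup.ext fun x => by
    rw [mem_subgroupOf, ← mem_map_iff_mem (subtype_injective _), MonoidHom.map_zpowers]
    rfl
  have h7 := isPBlock_defl hM uu_le h5 h1.1
  have h8 := blockDefect_defl hM uu_le (card_uu.trans (ho.trans (pow_one 7).symm)) h1.1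
  rw [h2, ← H592.Defect.factorization_card_defect 7 hM hB hD, hc, Nat.Prime.factorization_pow Fact.out, Finsupp.single_eq_same] at h8
  have h9 := S0908.result 7 M hM _ h7 _ h6
  rw [show blockDefect 7 (defl (Uu u) β) = 1 by omega, pow_one] at h9
  let P := (H592.Defect.isPGroup_of_isDefectGroup h6).toSylow fun ⟨k, hk⟩ => hS (Dvd.dvd.trans ⟨k, by
    rw [card_eq_card_quotient_mul_card_subgroup (Uu u), ← card_mul_index (map (QuotientGroup.mk' (Uu u)) (D.subgroupOf (Cu u))),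
      hk, h9, card_uu, ho]
    ring⟩ (card_subgroup_dvd_card (Cu u)))
  have h10 : ∀ y ∈ centralizer ((P : Subgroup (Cu u ⧸ Uu u)) : Set (Cu u ⧸ Uu u)), ¬ 7 ∣ orderOf y →
      ∃ x : Cu u, QuotientGroup.mk x = y ∧ (x : G) ∈ centralizer (D : Set G) ∧ ¬ 7 ∣ orderOf (x : G) := fun y h h' => by
    obtain ⟨x, h11, rfl⟩ := PRegular.exists_isPRegular_lift _ 7 (Uu u) h'
    refine ⟨x, rfl, mem_centralizer_iff.2 fun d hd => ?_, by rwa [orderOf_coe]⟩
    let d' : Cu u := ⟨d, mem_centralizer_singleton_iff.2 (congrArg Subtype.val (hab.is_comm.comm ⟨d, hd⟩ ⟨u, hu⟩))⟩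
    exact congrArg Subtype.val (mem_centralizer_singleton_iff.1 ((H644.CentralQuot.mem_centralizer_iff uu_le h5 h11 d').1
      (mem_centralizer_singleton_iff.2 (mem_centralizer_iff.1 h _ (mem_map_of_mem _ (mem_subgroupOf.2 hd))))))
  have h11 : ¬ 3 ∣ Nat.card (centralizer ((P : Subgroup (Cu u ⧸ Uu u)) : Set (Cu u ⧸ Uu u))) := fun h => by
    obtain ⟨y, h12⟩ := exists_prime_orderOf_dvd_card' 3 h
    rw [← orderOf_coe] at h12
    obtain ⟨x, h13, h14, -⟩ := h10 y y.2 (by rw [h12]; decide)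
    have h15 := orderOf_map_dvd (QuotientGroup.mk' (Uu u)) x
    rw [QuotientGroup.mk'_apply, h13, h12, ← orderOf_coe] at h15
    exact h3 (h15.trans ((centralizer _).orderOf_dvd_natCard h14))
  let t' : Cu u := ⟨t, mem_centralizer_singleton_iff.2 tu⟩
  have h12 : QuotientGroup.mk t' ∈ normalizer ((P : Subgroup (Cu u ⧸ Uu u)) : Set (Cu u ⧸ Uu u)) :=
    le_normalizer_map (QuotientGroup.mk' (Uu u)) (mem_map_of_mem _ (le_normalizer_comap (Cu u).subtype ht))
  have h13 : orderOf (QuotientGroup.mk t' : Cu u ⧸ Uu u) = 3 := orderOf_eq_prime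
    (by rw [← QuotientGroup.mk_pow, show t' ^ 3 = 1 from Subtype.ext (t3 ▸ pow_orderOf_eq_one t), QuotientGroup.mk_one])
    fun h => absurd (t3 ▸ ho ▸ orderOf_dvd_of_mem_zpowers (mem_subgroupOf.1 ((QuotientGroup.eq_one_iff _).1 h))) (by decide)
  have h14 : ∀ y ∈ centralizer ((P : Subgroup (Cu u ⧸ Uu u)) : Set (Cu u ⧸ Uu u)), ¬ 7 ∣ orderOf y →
      QuotientGroup.mk t' * y = y * QuotientGroup.mk t' := fun y h h' => by
    obtain ⟨x, rfl, h15, h16⟩ := h10 y h h'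
    exact congrArg QuotientGroup.mk (Subtype.ext (hy x h15 h16) : t' * x = x * t')
  obtain ⟨Y, hY⟩ := exists_isComp P h9
  obtain ⟨θ, hθ⟩ := H608.CycOne.exists_eq_Over hY h9 hM h7 (by omega)
  obtain ⟨A, h15, h16, h17, h18⟩ := cc hM hD hR hc ho h1
  refine loc ho h9 h11 hY h12 h13 (fun y h => h14 y (hY.le h) ((hY y).1 h).2) (θ := θ) (fun ψ hψ => ?_)
    (h16 ▸ blockRank_defl hM uu_le h5 h1.1 ▸ rank3 hM h9 h11 h12 h13 h14 h7 h6) h18
  obtain ⟨η, hη⟩ := Deflate.exists_deflation (Uu u) (ψ : Cu u → ℂ) ψ.2 (by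
    rw [Finset.sum_congr rfl fun (z : Uu u) _ => h17 ψ hψ z z.2, Finset.sum_const, Finset.card_univ, nsmul_eq_mul]
    exact mul_ne_zero (by exact_mod_cast Fintype.card_ne_zero) (isIrr_apply_one_ne_zero ψ.2))
  obtain rfl : fl η = ψ := Subtype.ext hη.symm
  exact ⟨η, hθ ▸ h15 hψ, rfl⟩

/-- regular elements of a group with a central Sylow subgroup -/
theorem reg_mul {W : Type} [Group W] [Finite W] (h : ¬ 7 ∣ (center W).index) {a b : W} (ha : ¬ 7 ∣ orderOf a) (hb : ¬ 7 ∣ orderOf b) :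
    ¬ 7 ∣ orderOf (a * b) := fun h1 => by
  have h2 : (a * b) ^ ((center W).index * (orderOf a * orderOf b)) = 1 := by
    rw [pow_mul, ← MonoidHom.transferCenterPow_apply, map_mul, coe_mul,
      Commute.mul_pow (mem_center_iff.1 (MonoidHom.transferCenterPow W b).2 _), MonoidHom.transferCenterPow_apply,
      MonoidHom.transferCenterPow_apply, ← pow_mul, ← pow_mul, orderOf_dvd_iff_pow_eq_one.1 ((dvd_mul_right _ _).mul_left _),
      orderOf_dvd_iff_pow_eq_one.1 ((dvd_mul_left _ _).mul_left _), one_mul]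
  simpa only [(Fact.out : Nat.Prime 7).dvd_mul, h, ha, hb, or_self] using h1.trans (orderOf_dvd_of_pow_eq_one h2)

/-- coprime action -/
theorem comm3 {G : Type} [Group G] {t y : G} (t3 : t ^ 3 = 1) (h : Commute t (y⁻¹ * (t * y * t⁻¹)))
    (h3 : ¬ 3 ∣ orderOf (y⁻¹ * (t * y * t⁻¹))) : Commute t y := by
  generalize hz : y⁻¹ * (t * y * t⁻¹) = z at h h3
  have h1 : t * y = y * z * t := by rw [← hz]; group
  have h2 : t ^ 3 * y = y * z ^ 3 * t ^ 3 := by
    calc t ^ 3 * y = t * (t * (t * y)) := by simp only [pow_succ, pow_zero, one_mul, mul_assoc]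
      _ = y * (z * t) ^ 3 := by
        simp only [h1, ← mul_assoc t, mul_assoc _ z t, mul_assoc y]
        simp only [pow_succ, pow_zero, one_mul, mul_assoc]
      _ = _ := by rw [h.symm.mul_pow, mul_assoc]
  rw [t3, one_mul, mul_one, left_eq_mul, ← orderOf_dvd_iff_pow_eq_one, Nat.dvd_prime Nat.prime_three] at h2
  rw [orderOf_eq_one_iff.1 (h2.resolve_right fun e => h3 (e ▸ dvd_rfl)), mul_one] at h1
  exact h1

end DE

open DE in
/-- **defect groups of order `49`** -/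
theorem boxDE_of (hO : BoxOv) : BoxDE := fun M X _ _ Γ b D S _ σ H hi hz hc hS h3 u hu u1 t ht t3 tu hy => by
  have : Fact (Nat.Prime 7) := ⟨by norm_num⟩
  have : Fact (Nat.Prime 3) := ⟨Nat.prime_three⟩
  obtain hR | ⟨G, _, _, ι, B, g, hι, ⟨α, -, -, hα⟩, ⟨c, hc1, ⟨k, z, -, hc3⟩, hG⟩, hB, hD, hR, -⟩ := hO 7 M X Γ b D S σ H (by decide) hi hz
  · exact de0 H.hM H.hb H.hD hR hc H.nc hS h3 hu u1 ht t3 tu hy
  have cc : ∀ (y : G) (n : ℕ), Commute y (c ^ n) := fun y n => Commute.pow_right (mem_center_iff.1 hc1 y) n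
  have cd : ∀ (a y : G) (n : ℕ), a * c ^ n * y * (a * c ^ n)⁻¹ = a * y * a⁻¹ := fun a y n => by
    rw [mul_assoc a, ← (cc y n).eq]
    group
  have hN : ι.range.Normal := ⟨by
    rintro _ ⟨y, rfl⟩ w
    obtain ⟨x, n, rfl | rfl⟩ := hG w
    · exact ⟨x * y * x⁻¹, by rw [map_mul, map_mul, map_inv, cd]⟩
    · exact ⟨x * α y * x⁻¹, by rw [map_mul, map_mul, map_inv, hα, mul_assoc (ι x) (c ^ n), ← (cc g n).eq, ← mul_assoc _ g, cd]; group⟩⟩
  let π := QuotientGroup.mk' ι.range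
  have h4 : ∀ x, π (ι x) = 1 := fun x => (QuotientGroup.eq_one_iff _).2 ⟨x, rfl⟩
  have h5 : π c ^ 2 ^ k = 1 := by rw [← map_pow, ← hc3, h4]
  have h6 : ∃ n, π g ^ 2 = π c ^ n := by
    obtain ⟨x, n, h | h⟩ := hG (g * g)
    · exact ⟨n, by rw [sq, ← map_mul, h, map_mul, h4, one_mul, map_pow]⟩
    · exact ⟨n * 2, by rw [mul_right_cancel h, map_mul, h4, one_mul, map_pow, pow_mul]⟩
  have h7 : ∀ y : G, ∃ n, π y ^ 2 = π c ^ n := fun y => by
    obtain ⟨m, hm⟩ := h6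
    obtain ⟨x, n, rfl | rfl⟩ := hG y
    · exact ⟨n * 2, by rw [map_mul, h4, one_mul, map_pow, pow_mul]⟩
    · exact ⟨n * 2 + m, by rw [map_mul, map_mul, h4, one_mul, ((cc g n).map π).symm.mul_pow, hm, map_pow, pow_add, pow_mul]⟩
  have h8 : IsPGroup 2 (G ⧸ ι.range) := fun y => by
    obtain ⟨y, rfl⟩ := QuotientGroup.mk'_surjective _ y
    obtain ⟨n, hn⟩ := h7 y
    exact ⟨k + 1, by rw [pow_succ', pow_mul, hn, ← pow_mul, mul_comm, pow_mul, h5, one_pow]⟩
  have h9 : ¬ 7 ^ 3 ∣ Nat.card G := fun h => by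
    obtain ⟨m, hm⟩ := h8.exists_card_eq
    rw [card_eq_card_quotient_mul_card_subgroup ι.range, hm, ← Nat.card_congr (MonoidHom.ofInjective hι).toEquiv] at h
    exact hS ((Nat.Coprime.pow _ _ (by decide)).dvd_of_dvd_mul_left h)
  have h10 : ∀ x, ι x ∈ centralizer (D.map ι : Set G) ↔ x ∈ centralizer (D : Set X) := fun x => by
    rw [Subgroup.mem_centralizer_iff, Subgroup.mem_centralizer_iff, coe_map, Set.forall_mem_image]
    simp only [← map_mul, hι.eq_iff]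
  have h11 : ¬ 3 ∣ Nat.card (centralizer (D.map ι : Set G)) := fun h => by
    obtain ⟨y, h12⟩ := exists_prime_orderOf_dvd_card' 3 h
    rw [← orderOf_coe] at h12
    obtain ⟨m, hm⟩ := h8 (π y)
    obtain ⟨x, hx⟩ := (QuotientGroup.eq_one_iff _).1 (orderOf_eq_one_iff.1 (Nat.eq_one_of_dvd_coprimes
      (Nat.Coprime.pow_right m (by decide : Nat.Coprime 3 2)) (h12 ▸ orderOf_map_dvd π y) (orderOf_dvd_of_pow_eq_one hm)))
    rw [← hx, orderOf_injective ι hι] at h12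
    exact h3 (h12 ▸ (centralizer _).orderOf_dvd_natCard ((h10 x).1 (hx ▸ y.2)))
  have h12 : Nat.card (D.map ι) = 7 ^ 2 := (card_map_of_injective hι).trans hc
  have h15 : ι t ∈ normalizer (D.map ι : Set G) := le_normalizer_map ι (mem_map_of_mem ι ht)
  have h16 := (orderOf_injective ι hι t).trans t3
  refine de0 H.hM hB hD hR h12 (fun h => H.nc (isCyclic_of_surjective _ (D.equivMapOfInjective ι hι).symm.surjective)) h9 h11
    (mem_map_of_mem ι hu) (fun h => u1 (hι (h.trans ι.map_one.symm))) h15 h16 (tu.map ι) fun y h h' => ?_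
  have h17 : ι t * y * (ι t)⁻¹ ∈ centralizer (D.map ι : Set G) := (mem_normalizer_iff.1 (H649.mem_normalizer_centralizer h15) y).1 h
  have h18 := mul_mem (inv_mem h) h17
  refine comm3 (h16 ▸ pow_orderOf_eq_one _) ?_ fun e => h11 (e.trans ((centralizer _).orderOf_dvd_natCard h18))
  obtain ⟨x, hx⟩ : y⁻¹ * (ι t * y * (ι t)⁻¹) ∈ ι.range := (QuotientGroup.eq_one_iff _).1 (by
    show π _ = 1
    rw [map_mul, map_mul, map_mul, map_inv, map_inv, h4, one_mul, inv_one, mul_one, inv_mul_cancel])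
  have h19 : ¬ 7 ∣ (center (centralizer (D.map ι : Set G))).index := fun e => h9 (by
    have hab := IsPGroup.isMulCommutative_of_card_eq_prime_sq h12
    have h20 := card_dvd_of_le (show (D.map ι).subgroupOf (centralizer (D.map ι : Set G)) ≤ center _ from fun d hd =>
      mem_center_iff.2 fun w => Subtype.ext (mem_centralizer_iff.1 w.2 d hd).symm)
    rw [Nat.card_congr (subgroupOfEquivOfLe (Subgroup.le_centralizer _)).toEquiv, h12] at h20
    exact (mul_dvd_mul h20 e).trans ((card_mul_index _).dvd.trans (card_subgroup_dvd_card _)))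
  have h20 := reg_mul h19 (a := ⟨y, h⟩⁻¹) (b := ⟨_, h17⟩) (by rwa [orderOf_inv, ← orderOf_coe])
    (by rwa [← orderOf_coe, coe_mk, ← MulAut.conj_apply, MulEquiv.orderOf_eq])
  rw [← orderOf_coe, coe_mul, coe_inv, ← hx, orderOf_injective ι hι] at h20
  exact hx ▸ (hy x ((h10 x).1 (hx ▸ h18)) h20).map ι

end Cfsg.Agent.OM.Lo
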