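import Cfsg.Agent.H608.CycOne
import Cfsg.Agent.OddOrderCharacters.IndRes
import Cfsg.Agent.H706.Canon
import Cfsg.Agent.CharactersDeep.ExtUnique
import Cfsg.Agent.Blocks.ReynoldsAux
import Cfsg.Agent.S0886
import Cfsg.Agent.H644.CentralQuot

/-!
# OM (S4894): an extension of degree three of a group with Sylow subgroups of order seven (helper35)

* `DE.al` : two different characters over the same local character are not conjugate.
-/

set_option autoImplicit false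
set_option linter.unusedSectionVars false

namespace Cfsg.Agent.OM.Lo.DE

open Cfsg Subgroup Cfsg.Agent.Characters Cfsg.Agent.Characters.Core Cfsg.Agent.Blocks.Basic
  Cfsg.Agent.SmallSimple.ThetaSetup Cfsg.Agent.SmallSimple.ThetaOrtho Cfsg.Agent.SmallSimple.TheoremC
  Cfsg.Agent.OddOrderCharacters.IndRes
open scoped ComplexConjugate

theorem z1 : ∀ a b : (ZMod 7)ˣ, b ≠ 1 → b ^ 3 = 1 → ∃ j : Fin 3, a ^ 2 * b ^ (j : ℕ) = 1 := by decide

theorem z2 : ∀ a b : (ZMod 7)ˣ, a ^ 3 = 1 → b ≠ 1 → b ^ 3 = 1 → ∃ j : Fin 3, a * (b ^ (j : ℕ))⁻¹ = 1 := by decide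

theorem z3 : ∀ a b : (ZMod 7)ˣ, a ^ 3 = 1 ∨ b ^ 3 = 1 ∨ (b * a⁻¹) ^ 3 = 1 := by decide

theorem z4 : ∀ a : (ZMod 7)ˣ, a ≠ 1 → a ^ 3 = 1 → a ^ 2 ≠ 1 := by decide

theorem z5 : ¬ 7 ∣ Nat.card (ZMod 7)ˣ := by rw [Nat.card_eq_fintype_card]; decide

/-- the action on a subgroup of order seven -/
theorem exists_phi {X : Type} [Group X] [Finite X] (R : Subgroup X) (h : Nat.card R = 7) :
    ∃ φ : normalizer (R : Set X) →* (ZMod 7)ˣ, ∀ g, φ g = 1 ↔ (g : X) ∈ centralizer (R : Set X) := by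
  have : Fact (Nat.Prime 7) := ⟨by norm_num⟩
  have : IsCyclic R := isCyclic_of_prime_card h
  have e := IsCyclic.mulAutMulEquiv R
  rw [h] at e
  refine ⟨e.toMonoidHom.comp R.normalizerMonoidHom, fun g => ?_⟩
  rw [← mem_subgroupOf, ← normalizerMonoidHom_ker, MonoidHom.mem_ker]
  exact e.map_eq_one_iff

section sums

variable {L : Type} [Group L] [Fintype L]

/-- the pairing -/
noncomputable def pt (f χ : L → ℂ) (x : L) : ℂ := ∑ y, χ (x * y) * conj (f y)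

theorem part_ne {Y : Subgroup L} (θ : Y → ℂ) (χ : L → ℂ) (x : L) : part θ χ x ≠ 0 ↔ pt (extendByZero Y θ) χ x ≠ 0 := by
  have := Fintype.ofFinite Y
  rw [part_eq, mul_ne_zero_iff_left (inv_ne_zero (card_ne_zero_complex (G := Y))), pt,
    Fintype.sum_of_injective Y.subtype (subtype_injective _) _ (fun y => χ (x * y) * conj (extendByZero Y θ y))
      (fun y hy => by rw [extendByZero_of_notMem _ _ fun h => hy ⟨⟨y, h⟩, rfl⟩, map_zero, mul_zero])
      fun y => by rw [coe_subtype, extendByZero_of_mem _ _ y.2]]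

theorem pt_aut (α : MulAut L) (f χ : L → ℂ) (x : L) : pt (f ∘ α) (χ ∘ α) x = pt f χ (α x) := by
  simp only [pt, Function.comp_apply, map_mul]
  exact Equiv.sum_comp α.toEquiv fun y => χ (α x * y) * conj (f y)

end sums

variable {K L : Type} [Group K] [Fintype K] [Group L] [Fintype L]

/-- the stabiliser of a function -/
def St (a : K →* MulAut L) (f : L → ℂ) : Subgroup K where
  carrier := {k | f ∘ a k = f}
  one_mem' := by rw [Set.mem_ofPred_eq, map_one]; rfl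
  mul_mem' {x y} hx hy := by
    rw [Set.mem_ofPred_eq, map_mul, MulAut.coe_mul, ← Function.comp_assoc, hx, hy]
  inv_mem' {x} hx := by
    rw [Set.mem_ofPred_eq, ← hx, Function.comp_assoc, ← MulAut.coe_mul, ← map_mul, mul_inv_cancel, map_one, hx]; rfl

theorem ind {ι : L →* K} (hι : Function.Injective ι) [ι.range.Normal] :
    ∃ a : K →* MulAut L, (∀ k x, ι (a k x) = k * ι x * k⁻¹) ∧ ∀ ψ : L → ℂ, IsIrrCharacter L ψ → St a ψ ≤ ι.range →
      ∃ χ : IrrCharacter K, (∀ k ∉ ι.range, (χ : K → ℂ) k = 0) ∧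
        ∀ x, (χ : K → ℂ) (ι x) = (Nat.card ι.range : ℂ)⁻¹ * ∑ k, ψ (a k x) := by
  let e := MonoidHom.ofInjective hι
  have he : ∀ y : ι.range, ι (e.symm y) = y := fun y => MonoidHom.apply_ofInjective_symm hι y
  refine ⟨(MulAut.congr e.symm).toMonoidHom.comp MulAut.conjNormal, fun k x => he _, fun ψ hψ hs => ?_⟩
  refine ⟨⟨indFun ι.range (ψ ∘ e.symm), isIrr_indFun_of_stabilizer _ (isIrr_comp e.symm.toMonoidHom e.symm.surjective hψ)
    fun g hg => hs (funext fun x => ?_)⟩, fun k hk => indFun_eq_zero_of_forall _ _ fun x h => hk ?_, fun x => ?_⟩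
  · exact (congrFun hg (e x)).trans (congrArg ψ (e.symm_apply_apply x))
  · exact (Normal.mem_comm_iff ‹_›).1 h |> fun h => by simpa using h
  · have h := congrFun (res_indFun ι.range (ψ ∘ e.symm)) (e x)
    rw [Pi.smul_apply, Finset.sum_apply, smul_eq_mul] at h
    exact h

/-- the frame -/
structure Fr [Fact (Nat.Prime 7)] (ι : L →* K) (a : K →* MulAut L) (μ : K →* (ZMod 7)ˣ) (P : Sylow 7 L) (Y : Subgroup L)
    (Q : Sylow 7 K) (Z : Subgroup K) : Prop where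
  inj : Function.Injective ι
  act : ∀ k x, ι (a k x) = k * ι x * k⁻¹
  ker : ∀ k, μ k = 1 ↔ k ∈ ι.range
  cube : ∀ k, μ k ^ 3 = 1
  cP : Nat.card P = 7
  cQ : Nat.card Q = 7
  map : (Q : Subgroup K) = (P : Subgroup L).map ι
  hY : IsComp 7 (P : Subgroup L) Y
  hZ : IsComp 7 (Q : Subgroup K) Z

namespace Fr

variable [Fact (Nat.Prime 7)] {ι : L →* K} {a : K →* MulAut L} {μ : K →* (ZMod 7)ˣ} {P : Sylow 7 L} {Y : Subgroup L}
  {Q : Sylow 7 K} {Z : Subgroup K} (F : Fr ι a μ P Y Q Z)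

include F

theorem mu (l : L) : μ (ι l) = 1 := (F.ker _).2 ⟨l, rfl⟩

theorem inn (l x : L) : a (ι l) x = l * x * l⁻¹ := F.inj (by rw [F.act, map_mul, map_mul, map_inv])

theorem memP (x : L) : ι x ∈ (Q : Subgroup K) ↔ x ∈ (P : Subgroup L) := by rw [F.map, mem_map_iff_mem F.inj]

theorem cen (x : L) : ι x ∈ centralizer ((Q : Subgroup K) : Set K) ↔ x ∈ centralizer ((P : Subgroup L) : Set L) := by
  rw [F.map, mem_centralizer_iff, mem_centralizer_iff, coe_map, Set.forall_mem_image]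
  simp only [← map_mul, F.inj.eq_iff]

theorem memY (y : L) : ι y ∈ Z ↔ y ∈ Y := by rw [F.hZ, F.hY, F.cen, orderOf_injective ι F.inj]

theorem nor {g : L} (hg : g ∈ normalizer ((P : Subgroup L) : Set L)) : ι g ∈ normalizer ((Q : Subgroup K) : Set K) :=
  F.map ▸ le_normalizer_map ι (mem_map_of_mem ι hg)

theorem aY {k : K} (hk : k ∈ normalizer ((Q : Subgroup K) : Set K)) (y : L) : a k y ∈ Y ↔ y ∈ Y := by
  rw [← F.memY, ← F.memY, F.act]
  exact ⟨fun h => by simpa [mul_assoc] using conj_mem F.hZ (inv_mem hk) h, conj_mem F.hZ hk⟩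

theorem dec {w : K} (hw : μ w ≠ 1) (k : K) : ∃ (i : ℕ) (l : L), k = ι l * w ^ i := by
  obtain ⟨i, hi⟩ := z2 _ _ (F.cube k) hw (F.cube w)
  obtain ⟨l, hl⟩ := (F.ker (k * (w ^ (i : ℕ))⁻¹)).1 (by rw [map_mul, map_inv, map_pow, hi])
  exact ⟨i, l, by rw [hl, inv_mul_cancel_right]⟩

theorem exists_tw {θ : Y → ℂ} (hθ : IsIrrCharacter Y θ) {k : K} (hk : k ∈ normalizer ((Q : Subgroup K) : Set K)) :
    ∃ θ', IsIrrCharacter Y θ' ∧ extendByZero Y θ' = extendByZero Y θ ∘ a k := by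
  refine ⟨_, isIrr_comp (((a k).toMonoidHom.comp Y.subtype).codRestrict Y fun y => (F.aY hk y).2 y.2)
    (fun y => ⟨⟨(a k).symm y, (F.aY hk _).1 (by rw [MulEquiv.apply_symm_apply]; exact y.2)⟩,
      Subtype.ext ((a k).apply_symm_apply y)⟩) hθ, funext fun x => ?_⟩
  by_cases hx : x ∈ Y
  · rw [extendByZero_of_mem _ _ hx, Function.comp_apply, Function.comp_apply, extendByZero_of_mem _ _ ((F.aY hk x).2 hx)]
    rfl
  · rw [extendByZero_of_notMem _ _ hx, Function.comp_apply, extendByZero_of_notMem _ _ (mt (F.aY hk x).1 hx)]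

theorem ext_tw (θ : Y → ℂ) {g : L} (hg : g ∈ normalizer ((P : Subgroup L) : Set L)) :
    extendByZero Y (tw θ g) = extendByZero Y θ ∘ a (ι g) := funext fun x => by
  by_cases hx : x ∈ Y
  · rw [extendByZero_of_mem _ _ hx, Function.comp_apply, F.inn]
    rfl
  · rw [extendByZero_of_notMem _ _ hx, Function.comp_apply, extendByZero_of_notMem _ _ (mt (F.aY (F.nor hg) x).1 hx)]

variable {θ : Y → ℂ} (hθ : IsIrrCharacter Y θ) {ψ ψ' : IrrCharacter L} (hψ : ψ ∈ Over P θ)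

include hθ hψ

/-- the local character is invariant -/
theorem inv (nd : ¬ 3 ∣ Nat.card (centralizer (P : Set L))) {t : L} (ht : t ∈ normalizer ((P : Subgroup L) : Set L)) (h1 : t ≠ 1) (h3 : t ^ 3 = 1) (hc : ∀ y ∈ Y, t * y = y * t)
    (hψ' : ψ' ∈ Over P θ) {n : K} (hn : n ∈ normalizer ((Q : Subgroup K) : Set K)) (hμ : μ n ≠ 1)
    (e : (ψ' : L → ℂ) ∘ a n = ψ) :
    centralizer ((Q : Subgroup K) : Set K) ≤ St a (extendByZero Y θ) ∧ ∃ r ∈ centralizer ((Q : Subgroup K) : Set K), μ r ≠ 1 := by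
  have : Fact (Nat.Prime 3) := ⟨by norm_num⟩
  obtain ⟨θ', h4, h5⟩ := F.exists_tw hθ hn
  obtain ⟨x, h6, h7⟩ := hψ'
  have h8 : ψ ∈ Over P θ' := by
    refine ⟨⟨a n⁻¹ x, (F.memP _).1 ?_⟩, fun h => h6 (Subtype.ext ((a n⁻¹).map_eq_one_iff.1 (congrArg Subtype.val h))), ?_⟩
    · rw [F.act]
      exact (mem_normalizer_iff.1 (inv_mem hn) _).1 ((F.memP _).2 x.2)
    · rwa [part_ne, h5, ← e, pt_aut, ← MulAut.mul_apply, ← map_mul, mul_inv_cancel, map_one, MulAut.one_apply, ← part_ne]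
  obtain ⟨g, h9, h10⟩ : ∃ g ∈ normalizer ((P : Subgroup L) : Set L), tw θ g = θ' := by_contra fun h =>
    Set.disjoint_left.1 (disjoint_Over F.hY F.cP hθ h4 fun g hg e => h ⟨g, hg, e⟩) hψ h8
  have h11 : n * (ι g)⁻¹ ∈ St a (extendByZero Y θ) := by
    show _ ∘ a _ = _
    rw [map_mul, MulAut.coe_mul, ← Function.comp_assoc, ← h5, ← h10, F.ext_tw θ h9, Function.comp_assoc, ← MulAut.coe_mul,
      ← map_mul, mul_inv_cancel, map_one]
    rfl
  have h12 : ι t ∈ St a (extendByZero Y θ) := (F.ext_tw θ ht).symm.trans (congrArg _ (funext fun y => by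
    rw [tw_apply F.hY θ ht]
    exact congrArg θ (Subtype.ext (mul_inv_eq_iff_eq_mul.2 (hc y y.2)))))
  obtain ⟨φ, hφ⟩ := exists_phi (Q : Subgroup K) F.cQ
  obtain ⟨j, hj⟩ := z1 (φ ⟨_, mul_mem hn (inv_mem (F.nor h9))⟩) (φ ⟨_, F.nor ht⟩)
    (fun h => nd (orderOf_eq_prime h3 h1 ▸ (centralizer _).orderOf_dvd_natCard ((F.cen t).1 ((hφ _).1 h))))
    (by rw [← map_pow, ← φ.map_one]; exact congrArg φ (Subtype.ext (by rw [coe_pow, ← map_pow, h3, map_one, coe_one])))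
  rw [← map_pow, ← map_pow, ← map_mul, hφ, coe_mul, coe_pow, coe_pow] at hj
  have h13 : μ ((n * (ι g)⁻¹) ^ 2 * ι t ^ (j : ℕ)) ≠ 1 := by
    rw [map_mul, map_pow, map_pow, map_mul, map_inv, F.mu, F.mu, inv_one, mul_one, one_pow, mul_one]
    exact z4 _ hμ (F.cube n)
  refine ⟨fun k hk => ?_, _, hj, h13⟩
  obtain ⟨i, l, rfl⟩ := F.dec h13 k
  have h14 := (F.cen l).1 ((mul_mem_cancel_right (pow_mem hj i)).1 hk)
  refine mul_mem ?_ (pow_mem (mul_mem (pow_mem h11 2) (pow_mem h12 j)) i)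
  exact (F.ext_tw θ (centralizer_le_normalizer _ h14)).symm.trans
    (congrArg _ (tw_centralizer F.hY F.cP (isIrr_isClassFunction hθ) h14))

variable (hs : centralizer ((Q : Subgroup K) : Set K) ≤ St a (extendByZero Y θ)) {r : K}
  (hr : r ∈ centralizer ((Q : Subgroup K) : Set K)) (hμ : μ r ≠ 1)

include hs

omit hψ in
/-- the extension -/
theorem exists_ext : ∃ η, IsIrrCharacter Z η ∧ ∀ (y : Y) (z : Z), (z : K) = ι y → η z = θ y := by
  let N := (μ.comp Z.subtype).ker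
  let j : Y →* N := ((ι.comp Y.subtype).codRestrict Z fun y => (F.memY y).2 y.2).codRestrict N fun y => F.mu y
  let e := MulEquiv.ofBijective j ⟨fun x y h => Subtype.ext (F.inj (congrArg (fun z : N => ((z : Z) : K)) h)), fun z => by
    obtain ⟨y, hy⟩ := (F.ker _).1 z.2
    exact ⟨⟨y, (F.memY y).1 (hy ▸ z.1.2)⟩, Subtype.ext (Subtype.ext hy)⟩⟩
  obtain ⟨η, h1, h2⟩ := S0886.result N (isCyclic_of_injective _ (QuotientGroup.kerLift_injective (μ.comp Z.subtype))) _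
    (isIrr_comp e.symm.toMonoidHom e.symm.surjective hθ) fun g n => by
      obtain ⟨y, rfl⟩ := e.surjective n
      have h3 := (F.aY (centralizer_le_normalizer _ (F.hZ.le g.2)) y).2 y.2
      have h4 := congrFun (hs (F.hZ.le g.2)) y
      rw [Function.comp_apply, extendByZero_of_mem _ _ h3, extendByZero_of_mem _ _ y.2] at h4
      exact (congrArg θ (e.symm_apply_eq.2 (Subtype.ext (Subtype.ext (F.act g y).symm)))).trans
        (h4.trans (congrArg θ (e.symm_apply_apply y).symm))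
  refine ⟨η, h1, fun y z hz => ?_⟩
  obtain rfl : z = e y := Subtype.ext hz
  exact (h2 (e y)).trans (congrArg θ (e.symm_apply_apply y))

include hr hμ

/-- the induced character lies over all extensions -/
theorem mem_over {χ : IrrCharacter K} (h0 : ∀ k ∉ ι.range, (χ : K → ℂ) k = 0) {c : ℂ} (hc : c ≠ 0)
    (h1 : ∀ x, (χ : K → ℂ) (ι x) = c * ∑ k, (ψ : L → ℂ) (a k x)) {η : Z → ℂ} (hη : ∀ (y : Y) (z : Z), (z : K) = ι y → η z = θ y) :
    χ ∈ Over Q η := by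
  obtain ⟨x, h2, h3⟩ := hψ
  rw [part_ne] at h3
  refine ⟨⟨ι x, (F.memP _).2 x.2⟩, fun h => h2 (Subtype.ext (F.inj ((congrArg Subtype.val h).trans ι.map_one.symm))), ?_⟩
  have h4 : ∀ k, pt (extendByZero Y θ) ((ψ : L → ℂ) ∘ a k) x = pt (extendByZero Y θ) ψ x := fun k => by
    obtain ⟨i, l, rfl⟩ := F.dec hμ k
    have h5 : (ψ : L → ℂ) ∘ a (ι l) = ψ := funext fun y => by rw [Function.comp_apply, F.inn, irr_conj ψ.2]
    have h6 : a (r ^ i) x = x := F.inj (by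
      rw [F.act, ← mem_centralizer_iff.1 (pow_mem hr i) _ ((F.memP _).2 x.2), mul_inv_cancel_right])
    rw [map_mul, MulAut.coe_mul, ← Function.comp_assoc, h5]
    exact (congrArg (pt · _ _) (hs (pow_mem hr i)).symm).trans ((pt_aut _ _ _ _).trans (congrArg _ h6))
  rw [part_ne, pt, ← Fintype.sum_of_injective ι F.inj (fun y => c * ∑ k, ((ψ : L → ℂ) ∘ a k) (x * y) * conj (extendByZero Y θ y)) _
    (fun k hk => by rw [h0 _ fun h => hk ((ι.range.mul_mem_cancel_left ⟨x, rfl⟩).1 h), zero_mul]) fun y => ?_, ← Finset.mul_sum,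
    Finset.sum_comm]
  · erw [Finset.sum_congr rfl fun k _ => h4 k]
    rw [Finset.sum_const, nsmul_eq_mul]
    exact mul_ne_zero hc (mul_ne_zero (Nat.cast_ne_zero.2 Fintype.card_ne_zero) h3)
  · rw [← map_mul, h1, mul_assoc, Finset.sum_mul]
    by_cases hy : y ∈ Y
    · rw [extendByZero_of_mem _ _ hy, extendByZero_of_mem _ _ ((F.memY y).2 hy), hη ⟨y, hy⟩ _ rfl]
      rfl
    · rw [extendByZero_of_notMem _ _ hy, extendByZero_of_notMem _ _ (mt (F.memY y).1 hy)]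
      rfl

/-- an extension is conjugate to its twist -/
theorem exists_m (h : St a (ψ : L → ℂ) ≤ ι.range → ∃ χ : IrrCharacter K, (∀ k ∉ ι.range, (χ : K → ℂ) k = 0) ∧
    ∀ x, (χ : K → ℂ) (ι x) = (Nat.card ι.range : ℂ)⁻¹ * ∑ k, (ψ : L → ℂ) (a k x)) {n : K} (hn : n ∉ St a (ψ : L → ℂ)) :
    ∃ (η : Z → ℂ) (ν : (ZMod 7)ˣ →* ℂˣ), IsIrrCharacter Z η ∧ η 1 = θ 1 ∧ ν (μ r) ≠ 1 ∧
      ∃ m ∈ normalizer ((Q : Subgroup K) : Set K), tw η m = fun z => η z * ν.comp (μ.comp Z.subtype) z := by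
  obtain ⟨χ, h0, h1⟩ := h fun k hk => by_contra fun h2 => by
    obtain ⟨i, l, rfl⟩ := F.dec (mt (F.ker k).1 h2) n
    exact hn (mul_mem (funext fun y => by rw [Function.comp_apply, F.inn, irr_conj ψ.2]) (pow_mem hk i))
  obtain ⟨η, h2, h3⟩ := F.exists_ext hθ hs
  obtain ⟨ν, hν⟩ := CommGroup.exists_apply_ne_one_of_hasEnoughRootsOfUnity (ZMod 7)ˣ ℂ hμ
  let l : Z →* ℂˣ := ν.comp (μ.comp Z.subtype)
  have hc := inv_ne_zero (card_ne_zero_complex (G := ι.range))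
  exact ⟨η, ν, h2, h3 1 1 ι.map_one.symm, hν, by_contra fun h =>
    Set.disjoint_left.1 (disjoint_Over F.hZ F.cQ h2 (CharactersDeep.ExtUnique.isIrr_mul_hom h2 l) fun g hg e => h ⟨g, hg, e⟩)
      (F.mem_over hθ hψ hs hr hμ h0 hc h1 h3) (F.mem_over hθ hψ hs hr hμ h0 hc h1 fun y z hz => by
        rw [h3 y z hz, show l z = 1 from (congrArg (fun k => ν (μ k)) hz).trans (by rw [F.mu, map_one]), Units.val_one, mul_one])⟩

/-- the determinant -/
theorem false_of (nd : ¬ 3 ∣ Nat.card (centralizer (P : Set L)))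
    (h : St a (ψ : L → ℂ) ≤ ι.range → ∃ χ : IrrCharacter K, (∀ k ∉ ι.range, (χ : K → ℂ) k = 0) ∧
    ∀ x, (χ : K → ℂ) (ι x) = (Nat.card ι.range : ℂ)⁻¹ * ∑ k, (ψ : L → ℂ) (a k x)) {n : K} (hn : n ∉ St a (ψ : L → ℂ)) : False := by
  have : Fact (Nat.Prime 3) := ⟨by norm_num⟩
  obtain ⟨η, ν, h2, h3, hν, m, h4, h5⟩ := F.exists_m hθ hψ hs hr hμ h hn
  let l : Z →* ℂˣ := ν.comp (μ.comp Z.subtype)
  obtain ⟨d, h6, h7⟩ := Blocks.ReynoldsAux.exists_degree_dvd hθ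
  obtain ⟨δ, hδ⟩ := CharactersDeep.ExtUnique.exists_hom_detChar h2
  obtain ⟨x, hx, y, hy, rfl⟩ := F.hZ.exists_mul F.cQ hr
  obtain ⟨x, -, rfl⟩ : x ∈ (P : Subgroup L).map ι := F.map ▸ hx
  rw [map_mul, F.mu, one_mul] at hν
  have h8 := congrFun (H706.Canon.detChar_comp h2 (cK F.hZ h4)) ⟨y, hy⟩
  rw [show η ∘ cK F.hZ h4 = fun z => η z * l z from (funext fun z => (tw_apply F.hZ η h4 z).symm).trans h5,
    CharactersDeep.ExtUnique.detChar_mul_hom h2 (h3.trans h6), Function.comp_apply, hδ] at h8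
  beta_reduce at h8
  rw [hδ] at h8
  obtain ⟨z, hz⟩ := (F.ker (y⁻¹ * (m * y * m⁻¹))).1 (by
    rw [map_mul, map_mul, map_mul, map_inv, map_inv, mul_inv_cancel_comm, inv_mul_cancel])
  have h9 : z ∈ Y := (F.memY z).1 (hz ▸ mul_mem (inv_mem hy) (conj_mem F.hZ h4 hy))
  have h10 : ((⟨y, hy⟩ : Z)⁻¹ * cK F.hZ h4 ⟨y, hy⟩) ^ Nat.card Y = 1 := Subtype.ext (by
    show (y⁻¹ * (m * y * m⁻¹)) ^ Nat.card Y = 1
    rw [← hz, ← map_pow, show z ^ Nat.card Y = 1 from congrArg Subtype.val (pow_card_eq_one' (x := (⟨z, h9⟩ : Y))), map_one])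
  have h11 := congrArg δ h10
  rw [map_pow, map_mul, map_inv, show δ (cK F.hZ h4 ⟨y, hy⟩) = δ ⟨y, hy⟩ * ν (μ y) ^ d from Units.ext (by push_cast; exact h8.symm),
    inv_mul_cancel_left, ← pow_mul, map_one, ← orderOf_dvd_iff_pow_eq_one,
    orderOf_eq_prime (p := 3) (by rw [← map_pow, F.cube, map_one]) hν] at h11
  exact nd (((Nat.prime_three.dvd_mul.1 h11).elim (·.trans h7) id).trans (card_dvd_of_le F.hY.le))

end Fr

/-- the frame exists -/
theorem exists_fr [Fact (Nat.Prime 7)] {ι : L →* K} (hι : Function.Injective ι) {μ : K →* (ZMod 7)ˣ} (hμ : ∀ k, μ k = 1 ↔ k ∈ ι.range)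
    (h3 : ∀ k, μ k ^ 3 = 1) {P : Sylow 7 L} (hP : Nat.card P = 7) {Y : Subgroup L} (hY : IsComp 7 (P : Subgroup L) Y) :
    ι.range.Normal ∧ ∃ a Q Z, Fr ι a μ P Y Q Z ∧ ∀ ψ : L → ℂ, IsIrrCharacter L ψ → St a ψ ≤ ι.range →
      ∃ χ : IrrCharacter K, (∀ k ∉ ι.range, (χ : K → ℂ) k = 0) ∧
        ∀ x, (χ : K → ℂ) (ι x) = (Nat.card ι.range : ℂ)⁻¹ * ∑ k, ψ (a k x) := by
  have h1 : ι.range = μ.ker := Subgroup.ext fun k => (hμ k).symm
  have : ι.range.Normal := h1 ▸ inferInstance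
  obtain ⟨a, ha, hi⟩ := ind hι
  have h2 : ¬ 7 ∣ ((P : Subgroup L).map ι).index := by
    rw [index_map_of_injective _ hι, (Fact.out : Nat.Prime 7).dvd_mul, h1, index_ker]
    exact not_or.2 ⟨P.not_dvd_index, fun h => absurd (h.trans (card_subgroup_dvd_card _)) z5⟩
  let Q := (P.isPGroup'.map ι).toSylow h2
  have h4 : Nat.card Q = 7 := (card_map_of_injective hι).trans hP
  obtain ⟨Z, hZ⟩ := exists_isComp Q h4
  exact ⟨this, a, Q, Z, ⟨hι, ha, hμ, h3, hP, h4, rfl, hY, hZ⟩, hi⟩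

/-- **two different characters over the same local character are not conjugate** -/
theorem al [Fact (Nat.Prime 7)] {ι : L →* K} (hι : Function.Injective ι) {μ : K →* (ZMod 7)ˣ} (hμ : ∀ k, μ k = 1 ↔ k ∈ ι.range)
    (h3 : ∀ k, μ k ^ 3 = 1) {P : Sylow 7 L} (hP : Nat.card P = 7) (hn : ¬ 3 ∣ Nat.card (centralizer (P : Set L))) {Y : Subgroup L}
    (hY : IsComp 7 (P : Subgroup L) Y) {t : L} (ht : t ∈ normalizer ((P : Subgroup L) : Set L)) (t1 : t ≠ 1) (t3 : t ^ 3 = 1)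
    (hc : ∀ y ∈ Y, t * y = y * t) {θ : Y → ℂ} (hθ : IsIrrCharacter Y θ) {ψ ψ' : IrrCharacter L} (hψ : ψ ∈ Over P θ)
    (hψ' : ψ' ∈ Over P θ) (hne : ψ ≠ ψ') {s : K} (hs : ∀ x x', ι x' = s * ι x * s⁻¹ → (ψ' : L → ℂ) x' = (ψ : L → ℂ) x) : False := by
  obtain ⟨_, a, Q, Z, F, hi⟩ := exists_fr hι hμ h3 hP hY
  obtain ⟨_, ⟨l, rfl⟩, n, h5, rfl⟩ := mem_sup_of_normal_left.1 (sup_comm _ ι.range ▸
    (Q.normalizer_sup_eq_top' (F.map.le.trans (map_le_range _ _))).ge (mem_top s))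
  have h6 : (ψ' : L → ℂ) ∘ a n = ψ := funext fun x => by
    rw [← hs x _ (F.act _ x), map_mul, MulAut.mul_apply, F.inn, irr_conj ψ'.2, Function.comp_apply]
  have h7 : n ∉ St a (ψ : L → ℂ) := fun h => hne (Subtype.ext ((a n).surjective.injective_comp_right (h.trans h6.symm)))
  obtain ⟨h8, r, h9, h10⟩ := F.inv hθ hψ hn ht t1 t3 hc hψ' h5 (fun h => by
    obtain ⟨l, rfl⟩ := (hμ n).1 h
    exact h7 (funext fun y => by rw [Function.comp_apply, F.inn, irr_conj ψ.2])) h6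
  exact F.false_of hθ hψ h8 h9 h10 hn (hi _ ψ.2) h7

/-- **the same with a given second element** -/
theorem al1 [Fact (Nat.Prime 7)] {ι : L →* K} (hι : Function.Injective ι) {μ : K →* (ZMod 7)ˣ} (hμ : ∀ k, μ k = 1 ↔ k ∈ ι.range)
    (h3 : ∀ k, μ k ^ 3 = 1) {P : Sylow 7 L} (hP : Nat.card P = 7) {Y : Subgroup L}
    (hY : IsComp 7 (P : Subgroup L) Y) {t : L} (ht : t ∈ normalizer ((P : Subgroup L) : Set L))
    (t1 : t ∉ centralizer ((P : Subgroup L) : Set L)) (t3 : t ^ 3 = 1) (hc : ∀ y ∈ Y, t * y = y * t) {r : K} (r1 : μ r ≠ 1) (r3 : r ^ 3 = 1)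
    (rP : ∀ x ∈ (P : Subgroup L), ι x * r = r * ι x) (rY : ∀ y ∈ Y, ι y * r = r * ι y) (rt : ι t * r = r * ι t)
    {θ : Y → ℂ} (hθ : IsIrrCharacter Y θ) {ψ ψ' : IrrCharacter L} (hψ : ψ ∈ Over P θ)
    (hne : ψ ≠ ψ') {s : K} (hs : ∀ x x', ι x' = s * ι x * s⁻¹ → (ψ' : L → ℂ) x' = (ψ : L → ℂ) x) : False := by
  obtain ⟨_, a, Q, Z, F, hi⟩ := exists_fr hι hμ h3 hP hY
  have h1 : r ∈ centralizer ((Q : Subgroup K) : Set K) := by
    rw [F.map, mem_centralizer_iff, coe_map, Set.forall_mem_image]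
    exact rP
  have h2 : r ∈ St a (extendByZero Y θ) := funext fun y => by
    by_cases hy : y ∈ Y
    · rw [Function.comp_apply, show a r y = y from hι (by rw [F.act, ← rY y hy, mul_inv_cancel_right])]
    · rw [Function.comp_apply, extendByZero_of_notMem _ _ hy,
        extendByZero_of_notMem _ _ (mt (F.aY (centralizer_le_normalizer _ h1) y).1 hy)]
  obtain ⟨η, ν, h4, -, h5, m, h6, h7⟩ := F.exists_m hθ hψ (fun k hk => by
      obtain ⟨i, l, rfl⟩ := F.dec r1 k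
      have h4 := (F.cen l).1 ((mul_mem_cancel_right (pow_mem h1 i)).1 hk)
      exact mul_mem ((F.ext_tw θ (centralizer_le_normalizer _ h4)).symm.trans
        (congrArg _ (tw_centralizer F.hY F.cP (isIrr_isClassFunction hθ) h4))) (pow_mem h2 i)) h1 r1 (hi _ ψ.2) (n := s)
    fun h => hne (Subtype.ext ((a s).surjective.injective_comp_right (h.trans (funext fun x => (hs x _ (F.act s x)).symm))))
  have h8 : r ∈ Z := (F.hZ r).2 ⟨h1, fun h => absurd (h.trans (orderOf_dvd_of_pow_eq_one r3)) (by decide)⟩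
  have h9 : ∀ z ∈ Z, z * r = r * z ∧ z * ι t = ι t * z := fun z hz => by
    obtain ⟨i, l, rfl⟩ := F.dec r1 z
    have h10 := (F.memY l).1 ((mul_mem_cancel_right (pow_mem h8 i)).1 hz)
    exact ⟨Commute.mul_left (rY l h10) (Commute.pow_self r i),
      Commute.mul_left (Commute.map (hc l h10).symm ι) (Commute.pow_left rt.symm i)⟩
  obtain ⟨φ, hφ⟩ := exists_phi (Q : Subgroup K) F.cQ
  obtain ⟨j, hj⟩ := z1 (φ ⟨_, h6⟩) (φ ⟨_, F.nor ht⟩) (fun h => t1 ((F.cen t).1 ((hφ _).1 h)))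
    (by rw [← map_pow, ← φ.map_one]; exact congrArg φ (Subtype.ext (by rw [coe_pow, ← map_pow, t3, map_one, coe_one])))
  rw [← map_pow, ← map_pow, ← map_mul, hφ, coe_mul, coe_pow, coe_pow] at hj
  have h10 := congrFun (tw_centralizer F.hZ F.cQ (isIrr_isClassFunction h4) hj) ⟨r, h8⟩
  rw [tw_mul F.hZ _ (pow_mem h6 2) (pow_mem (F.nor ht) _), tw_apply F.hZ _ (pow_mem (F.nor ht) _),
    show (⟨_, conj_mem F.hZ (pow_mem (F.nor ht) _) (⟨r, h8⟩ : Z).2⟩ : Z) = ⟨r, h8⟩ from Subtype.ext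
      (mul_inv_eq_iff_eq_mul.2 (Commute.pow_left rt (j : ℕ))), sq, tw_mul F.hZ _ h6 h6, h7, tw_apply F.hZ _ h6,
    ← tw_apply F.hZ η h6, h7] at h10
  simp only [MonoidHom.comp_apply, coe_subtype, map_mul, map_inv, mul_inv_cancel_comm] at h10
  have := Fintype.ofFinite Z
  obtain ⟨c, h11⟩ := H644.CentralQuot.exists_scalar_center ⟨η, h4⟩ (z := ⟨r, h8⟩)
    (mem_center_iff.2 fun z => Subtype.ext (h9 z z.2).1)
  have h12 : η ⟨r, h8⟩ ≠ 0 := fun h => by
    have h13 := h11 1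
    have h14 := h11 ⟨r, h8⟩⁻¹
    rw [one_mul] at h13
    rw [inv_mul_cancel, (mul_eq_zero.1 (h13.symm.trans h)).resolve_right (isIrr_apply_one_ne_zero h4), zero_mul] at h14
    exact isIrr_apply_one_ne_zero h4 h14
  rw [mul_assoc, mul_right_eq_self₀, or_iff_left h12, ← Units.val_mul, Units.val_eq_one] at h10
  have h13 : ν (μ r) ^ 3 = 1 := by rw [← map_pow, h3, map_one]
  exact h5 (by rwa [pow_succ, sq, h10, one_mul] at h13)

end Cfsg.Agent.OM.Lo.DE
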